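import Cfsg.Agent.FT.Base.Coprime
import Cfsg.Agent.FT.Base.PGrp
import Cfsg.Agent.FT.Base.BG1

/-!
# Dade's extension theorem for extraspecial `2`-groups, part A

The normal subgroup `E` has all commutators in `⟪z⟫` (`z` a central involution) and is
represented in an algebra `R` by `r` with `r z = -1`.  For a nondegenerate `F ≤ E` the span
`A F` of `r F` is central simple; we prove what is needed of this by hand.
-/

set_option autoImplicit false
set_option linter.unusedSectionVars false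

namespace Cfsg.DadeX

open scoped Pointwise commutatorElement
open Subgroup Cfsg.FT

noncomputable scoped instance (priority := low) finSub {G : Type*} [Group G] [Finite G]
    (F : Subgroup G) : Fintype F := Fintype.ofFinite F

/-- the data of the theorem -/
structure Dat (G : Type*) [Group G] (R : Type*) [Ring R] [Algebra ℂ R] where
  E : Subgroup G
  z : G
  r : G → R
  t : R →ₗ[ℂ] ℂ
  norm : ∀ g, ∀ x ∈ E, g * x * g⁻¹ ∈ E
  zE : z ∈ E
  zz : z * z = 1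
  zc : ∀ g, g * z = z * g
  comm : ∀ x ∈ E, ∀ y ∈ E, y * x * y⁻¹ = x ∨ y * x * y⁻¹ = z * x
  two : IsPGroup 2 E
  mul : ∀ x ∈ E, ∀ y ∈ E, r (x * y) = r x * r y
  one : r 1 = 1
  rz : r z = -1
  t1 : t 1 = 1
  t0 : ∀ x ∈ E, x ≠ 1 → x ≠ z → t (r x) = 0

variable {G : Type*} [Group G] [Finite G] {R : Type*} [Ring R] [Algebra ℂ R]

namespace Dat

variable (D : Dat G R) {F F₁ F₂ X Y S K B : Subgroup G} {g x y : G} {u v w : R}

theorem tz : D.t (D.r D.z) = -1 := by rw [D.rz, map_neg, D.t1]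

theorem z_ne : D.z ≠ 1 := fun h => by
  have h1 := D.tz
  rw [h, D.one, D.t1] at h1
  norm_num at h1

theorem z_inv : D.z⁻¹ = D.z := inv_eq_of_mul_eq_one_right D.zz

theorem conj_z (g : G) : g * D.z * g⁻¹ = D.z := by rw [D.zc]; group

theorem mem_Z : x ∈ ⟪D.z⟫ ↔ x = 1 ∨ x = D.z := by
  constructor
  · intro h
    let Z : Subgroup G :=
      { carrier := {x | x = 1 ∨ x = D.z}
        one_mem' := Or.inl rfl
        mul_mem' := by
          rintro a b (rfl | rfl) (rfl | rfl) <;> simp [D.zz]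
        inv_mem' := by
          rintro a (rfl | rfl) <;> simp [D.z_inv] }
    exact (zpowers_le (H := Z)).2 (Or.inr rfl) h
  · rintro (rfl | rfl)
    exacts [one_mem _, mem_zpowers _]

theorem Z_comm (hx : x ∈ ⟪D.z⟫) (g : G) : g * x = x * g := by
  rcases D.mem_Z.1 hx with rfl | rfl
  · simp
  · exact D.zc g

theorem Z_conj (hx : x ∈ ⟪D.z⟫) (g : G) : g * x * g⁻¹ = x := by rw [D.Z_comm hx]; group

theorem Z_le_cent (X : Subgroup G) : ⟪D.z⟫ ≤ 𝐂[X] := fun _ hx g _ => D.Z_comm hx g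

theorem le_cent_Z (X : Subgroup G) : X ≤ 𝐂[⟪D.z⟫] := fun g _ _ hx => (D.Z_comm hx g).symm

theorem Z_mul_self (hx : x ∈ ⟪D.z⟫) : x * x = 1 := by
  rcases D.mem_Z.1 hx with rfl | rfl
  · simp
  · exact D.zz

theorem r_zmul (hx : x ∈ D.E) : D.r (D.z * x) = - D.r x := by
  rw [D.mul _ D.zE _ hx, D.rz, neg_one_mul]

theorem r_mul_inv (hx : x ∈ D.E) : D.r x * D.r x⁻¹ = 1 := by
  rw [← D.mul _ hx _ (inv_mem hx), mul_inv_cancel, D.one]

theorem r_inv_mul (hx : x ∈ D.E) : D.r x⁻¹ * D.r x = 1 := by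
  rw [← D.mul _ (inv_mem hx) _ hx, inv_mul_cancel, D.one]

theorem r_conj (hx : x ∈ D.E) (hy : y ∈ D.E) : D.r (y * x * y⁻¹) = D.r y * D.r x * D.r y⁻¹ := by
  rw [D.mul _ (mul_mem hy hx) _ (inv_mem hy), D.mul _ hy _ hx]

theorem t_r_of_notMem (hx : x ∈ D.E) (h : x ∉ ⟪D.z⟫) : D.t (D.r x) = 0 :=
  D.t0 x hx (fun e => h (D.mem_Z.2 (Or.inl e))) (fun e => h (D.mem_Z.2 (Or.inr e)))

theorem t_r_inv (hx : x ∈ D.E) : D.t (D.r x⁻¹) = D.t (D.r x) := by
  by_cases h : x ∈ ⟪D.z⟫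
  · rw [inv_eq_of_mul_eq_one_right (D.Z_mul_self h)]
  · rw [D.t_r_of_notMem hx h, D.t_r_of_notMem (inv_mem hx) (fun e => h (inv_mem_iff.1 e))]

include D in
theorem smul_one_inj {a b : ℂ} (h : a • (1 : R) = b • 1) : a = b := by
  have := congrArg D.t h
  simpa [D.t1] using this

theorem eq_zero_of_eq_neg (h : u = -u) : u = 0 := by
  have h2 : (2 : ℂ) • u = 0 := by rw [two_smul]; nth_rewrite 1 [h]; simp
  have : u = (2 : ℂ)⁻¹ • ((2 : ℂ) • u) := by rw [smul_smul]; norm_num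
  rw [this, h2, smul_zero]

/-- nondegenerate subgroups -/
structure ND (F : Subgroup G) : Prop where
  zF : D.z ∈ F
  le : F ≤ D.E
  cen : F ⊓ 𝐂[F] ≤ ⟪D.z⟫

/-- the span of `r F` -/
def A (F : Subgroup G) : Submodule ℂ R := Submodule.span ℂ (D.r '' F)

variable {D}

theorem ND.Z_le (h : D.ND F) : ⟪D.z⟫ ≤ F := zpowers_le.2 h.zF

theorem r_mem_A (hx : x ∈ F) : D.r x ∈ D.A F := Submodule.subset_span ⟨x, hx, rfl⟩

theorem one_mem_A : (1 : R) ∈ D.A F := D.one ▸ r_mem_A (one_mem F)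

theorem A_mono (h : X ≤ Y) : D.A X ≤ D.A Y := Submodule.span_mono (Set.image_mono h)

theorem A_induction {p : R → Prop} (hu : u ∈ D.A F) (h1 : ∀ x ∈ F, p (D.r x)) (h0 : p 0)
    (ha : ∀ a b, p a → p b → p (a + b)) (hs : ∀ (c : ℂ) a, p a → p (c • a)) : p u := by
  induction hu using Submodule.span_induction with
  | mem x hx => obtain ⟨y, hy, rfl⟩ := hx; exact h1 y hy
  | zero => exact h0
  | add a b _ _ h h' => exact ha a b h h'
  | smul c a _ h => exact hs c a h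

/-- two linear maps agreeing on `r F` agree on `A F` -/
theorem A_ext {M : Type*} [AddCommGroup M] [Module ℂ M] (f g : R →ₗ[ℂ] M)
    (h : ∀ x ∈ F, f (D.r x) = g (D.r x)) (hu : u ∈ D.A F) : f u = g u :=
  A_induction (p := fun u => f u = g u) hu h (by simp) (fun a b h1 h2 => by simp [h1, h2])
    (fun c a h1 => by simp [h1])

theorem mul_mem_A (hF : F ≤ D.E) (hu : u ∈ D.A F) (hv : v ∈ D.A F) : u * v ∈ D.A F := by
  refine A_induction (p := fun u => u * v ∈ D.A F) hu (fun x hx => ?_) (by simp)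
    (fun a b h1 h2 => by rw [add_mul]; exact add_mem h1 h2)
    (fun c a h1 => by rw [smul_mul_assoc]; exact Submodule.smul_mem _ _ h1)
  refine A_induction (p := fun v => D.r x * v ∈ D.A F) hv (fun y hy => ?_) (by simp)
    (fun a b h1 h2 => by rw [mul_add]; exact add_mem h1 h2)
    (fun c a h1 => by rw [mul_smul_comm]; exact Submodule.smul_mem _ _ h1)
  rw [← D.mul _ (hF hx) _ (hF hy)]
  exact r_mem_A (mul_mem hx hy)

theorem pow_mem_A (hF : F ≤ D.E) (hu : u ∈ D.A F) (n : ℕ) : u ^ n ∈ D.A F := by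
  induction n with
  | zero => rw [pow_zero]; exact one_mem_A
  | succ n ih => rw [pow_succ]; exact mul_mem_A hF ih hu

/-- an intertwining relation on `r F` extends to `A F` -/
theorem comm_A (hw : ∀ x ∈ F, u * D.r x = D.r x * v) (h : w ∈ D.A F) : u * w = w * v :=
  A_ext (LinearMap.mulLeft ℂ u) (LinearMap.mulRight ℂ v) hw h

theorem A_comm (hX : X ≤ D.E) (hY : Y ≤ D.E) (h : X ≤ 𝐂[Y]) (hu : u ∈ D.A X) (hv : v ∈ D.A Y) :
    u * v = v * u := by
  refine comm_A (fun y hy => (comm_A (fun x hx => ?_) hu).symm) hv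
  rw [← D.mul _ (hY hy) _ (hX hx), ← D.mul _ (hX hx) _ (hY hy), h hx y hy]

theorem sum_conj_eq_zero (hF : F ≤ D.E) (hx : x ∈ D.E) (h : x ∉ 𝐂[F]) :
    ∑ f : F, D.r (f * x * (f : G)⁻¹) = 0 := by
  obtain ⟨y, hy, hxy⟩ : ∃ y ∈ F, y * x * y⁻¹ = D.z * x := by
    by_contra! hn
    exact h fun y hy => by
      rcases D.comm x hx y (hF hy) with e | e
      · exact mul_inv_eq_iff_eq_mul.1 e
      · exact absurd e (hn y hy)
  apply eq_zero_of_eq_neg
  rw [← Finset.sum_neg_distrib, ← Equiv.sum_comp (Equiv.mulRight (⟨y, hy⟩ : F))]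
  refine Finset.sum_congr rfl fun f _ => ?_
  rw [← D.r_zmul (D.norm _ _ hx)]
  congr 1
  simp only [Equiv.coe_mulRight, coe_mul]
  calc (f : G) * y * x * (f * y)⁻¹ = f * (y * x * y⁻¹) * (f : G)⁻¹ := by group
    _ = (f * D.z) * x * (f : G)⁻¹ := by rw [hxy]; group
    _ = _ := by rw [D.zc]; group

theorem sum_conj (hF : D.ND F) (hx : x ∈ F) :
    ∑ f : F, D.r (f * x * (f : G)⁻¹) = ((Nat.card F : ℂ) * D.t (D.r x)) • (1 : R) := by
  by_cases h : x ∈ ⟪D.z⟫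
  · simp only [D.Z_conj h, Finset.sum_const, Finset.card_univ, ← Nat.card_eq_fintype_card]
    rw [← Nat.cast_smul_eq_nsmul ℂ, mul_smul]
    rcases D.mem_Z.1 h with rfl | rfl
    · rw [D.one, D.t1, one_smul]
    · rw [D.tz, D.rz, neg_one_smul]
  · rw [sum_conj_eq_zero hF.le (hF.le hx) (fun hc => h (hF.cen ⟨hx, hc⟩)),
      D.t_r_of_notMem (hF.le hx) h, mul_zero, zero_smul]

theorem avg (hF : D.ND F) (hu : u ∈ D.A F) :
    ∑ f : F, D.r f * u * D.r (f : G)⁻¹ = ((Nat.card F : ℂ) * D.t u) • (1 : R) := by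
  refine A_induction (p := fun u => ∑ f : F, D.r f * u * D.r (f : G)⁻¹ =
    ((Nat.card F : ℂ) * D.t u) • (1 : R)) hu (fun x hx => ?_) (by simp) (fun a b h1 h2 => ?_)
    (fun c a h1 => ?_)
  · rw [← sum_conj hF hx]
    exact Finset.sum_congr rfl fun f _ => (D.r_conj (hF.le hx) (hF.le f.2)).symm
  · simp only [mul_add, add_mul, Finset.sum_add_distrib, h1, h2, map_add, add_smul]
  · simp only [mul_smul_comm, smul_mul_assoc, ← Finset.smul_sum, h1, map_smul, smul_smul,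
      smul_eq_mul]
    congr 1; ring

theorem card_ne_zero (F : Subgroup G) : (Nat.card F : ℂ) ≠ 0 := by
  exact_mod_cast Nat.card_pos.ne'

/-- the centre of `A F` consists of scalars -/
theorem scalar (hF : D.ND F) (hu : u ∈ D.A F) (h : ∀ f ∈ F, u * D.r f = D.r f * u) :
    u = D.t u • (1 : R) := by
  have h1 := avg hF hu
  have h2 : ∀ f : F, D.r f * u * D.r (f : G)⁻¹ = u := fun f => by
    rw [← h f f.2, mul_assoc, D.r_mul_inv (hF.le f.2), mul_one]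
  simp only [h2, Finset.sum_const, Finset.card_univ, ← Nat.card_eq_fintype_card] at h1
  rw [← Nat.cast_smul_eq_nsmul ℂ, mul_smul] at h1
  have := congrArg ((Nat.card F : ℂ)⁻¹ • ·) h1
  simpa only [smul_smul, ← mul_assoc, inv_mul_cancel₀ (card_ne_zero F), one_smul, one_mul]
    using this

theorem sum_delta {M : Type*} [AddCommGroup M] [Module ℂ M] (hF : D.ND F) (φ : F → M) :
    ∑ f : F, D.t (D.r (f : G)⁻¹) • φ f = φ 1 - φ ⟨D.z, hF.zF⟩ := by
  have hne : (1 : F) ≠ ⟨D.z, hF.zF⟩ := fun e => D.z_ne (congrArg Subtype.val e).symm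
  rw [Fintype.sum_eq_add 1 ⟨D.z, hF.zF⟩ hne]
  · simp [D.one, D.t1, D.z_inv, D.tz, sub_eq_add_neg]
  · rintro f ⟨h1, h2⟩
    rw [D.t_r_inv (hF.le f.2), D.t0 f (hF.le f.2) (fun e => h1 (Subtype.ext e))
      (fun e => h2 (Subtype.ext e)), zero_smul]

/-! ### orthogonal complements and sums -/

theorem exists_mul_mem_cent (hF : D.ND F) (hx : x ∈ D.E) : ∃ y ∈ F, x * y ∈ 𝐂[F] := by
  by_contra! hn
  have h1 : ∑ y : F, (∑ f : F, D.r (f * (x * y) * (f : G)⁻¹)) * D.r (y : G)⁻¹ = 0 :=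
    Finset.sum_eq_zero fun y _ => by
      rw [sum_conj_eq_zero hF.le (mul_mem hx (hF.le y.2)) (hn y y.2), zero_mul]
  simp only [Finset.sum_mul] at h1
  rw [Finset.sum_comm] at h1
  have h2 : ∀ f : F, ∑ y : F, D.r (f * (x * y) * (f : G)⁻¹) * D.r (y : G)⁻¹ =
      D.t (D.r (f : G)⁻¹) • ((Nat.card F : ℂ) • D.r (f * x)) := fun f => by
    have h3 : ∀ y : F, D.r (f * (x * y) * (f : G)⁻¹) * D.r (y : G)⁻¹ =
        D.r (f * x) * D.r (y * (f : G)⁻¹ * (y : G)⁻¹) := fun y => by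
      rw [← D.mul _ (D.norm _ _ (mul_mem hx (hF.le y.2))) _ (inv_mem (hF.le y.2)),
        ← D.mul _ (mul_mem (hF.le f.2) hx) _ (D.norm _ _ (inv_mem (hF.le f.2)))]
      congr 1; group
    simp only [h3]
    rw [← Finset.mul_sum, sum_conj hF (inv_mem f.2), mul_smul_comm, mul_one, smul_smul, mul_comm]
  simp only [h2] at h1
  rw [sum_delta hF (fun f : F => (Nat.card F : ℂ) • D.r (f * x))] at h1
  simp only [OneMemClass.coe_one, one_mul, D.r_zmul hx, smul_neg, sub_neg_eq_add] at h1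
  have h4 := congrArg (fun a => D.t (a * D.r x⁻¹)) h1
  simp only [add_mul, smul_mul_assoc, D.r_mul_inv hx, map_add, map_smul, D.t1, zero_mul,
    map_zero, smul_eq_mul, mul_one, add_self_eq_zero] at h4
  exact card_ne_zero F h4

theorem sup_cent (hF : D.ND F) (hX : D.ND X) (h : X ≤ F) : X ⊔ (F ⊓ 𝐂[X]) = F := by
  refine le_antisymm (sup_le h inf_le_left) fun x hx => ?_
  obtain ⟨y, hy, hc⟩ := exists_mul_mem_cent hX (hF.le hx)
  have : x = (x * y) * y⁻¹ := by group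
  rw [this]
  exact mul_mem (mem_sup_right ⟨mul_mem hx (h hy), hc⟩) (mem_sup_left (inv_mem hy))

theorem nd_cent (hF : D.ND F) (hX : D.ND X) (h : X ≤ F) : D.ND (F ⊓ 𝐂[X]) := by
  refine ⟨⟨hF.zF, D.Z_le_cent X (mem_zpowers _)⟩, inf_le_left.trans hF.le, fun x hx => ?_⟩
  refine hF.cen ⟨hx.1.1, ?_⟩
  have : x ∈ 𝐂[X ⊔ (F ⊓ 𝐂[X])] := by rw [centY]; exact ⟨hx.1.2, hx.2⟩
  rwa [sup_cent hF hX h] at this

theorem nd_Z : D.ND ⟪D.z⟫ := ⟨mem_zpowers _, zpowers_le.2 D.zE, inf_le_left⟩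

theorem nd_sup (hX : D.ND X) (hY : D.ND Y) (h : Y ≤ 𝐂[X]) : D.ND (X ⊔ Y) := by
  refine ⟨mem_sup_left hX.zF, sup_le hX.le hY.le, fun w hw => ?_⟩
  obtain ⟨x, hx, y, hy, rfl⟩ := (mem_join_norm (cents_norm h)).1 hw.1
  have hc := hw.2
  rw [centY] at hc
  have h1 : x ∈ 𝐂[X] := (mul_mem_cancel_right (h hy)).1 hc.1
  have h2 : y ∈ 𝐂[Y] := (mul_mem_cancel_left (centsC.1 h hx)).1 hc.2
  exact mul_mem (hX.cen ⟨hx, h1⟩) (hY.cen ⟨hy, h2⟩)

theorem nd_sSup {𝒳 : Set (Subgroup G)} (h : ∀ X ∈ 𝒳, D.ND X)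
    (hc : ∀ X ∈ 𝒳, ∀ Y ∈ 𝒳, X ≠ Y → X ≤ 𝐂[Y]) : D.ND (⟪D.z⟫ ⊔ sSup 𝒳) := by
  induction 𝒳, Set.toFinite 𝒳 using Set.Finite.induction_on with
  | empty => simpa using nd_Z
  | @insert X 𝒳 hX _ ih =>
    rw [sSup_insert, ← sup_assoc, sup_comm _ X, sup_assoc]
    refine nd_sup (h X (Set.mem_insert _ _))
      (ih (fun Y hY => h Y (Set.mem_insert_of_mem _ hY)) fun Y hY W hW =>
        hc Y (Set.mem_insert_of_mem _ hY) W (Set.mem_insert_of_mem _ hW))
      (sup_le (D.Z_le_cent X) (sSup_le fun Y hY => ?_))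
    exact hc Y (Set.mem_insert_of_mem _ hY) X (Set.mem_insert _ _) (fun e => hX (e ▸ hY))

theorem nd_conj (hF : D.ND F) (g : G) : D.ND (g •ᶜ F) := by
  refine ⟨?_, fun x hx => ?_, ?_⟩
  · rw [← D.conj_z g]; exact conj_mem_conj.2 hF.zF
  · obtain ⟨y, hy, rfl⟩ := mem_conj_iff_exists.1 hx
    exact D.norm _ _ (hF.le hy)
  · rw [cent_conj, ← conj_inf]
    refine (conj_le_conj.2 hF.cen).trans ?_
    rw [conj_zpowers, D.conj_z]

theorem cent_commg (hF : F ≤ D.E) (hx : x ∈ D.E) (hB : x ∈ 𝐂[B]) : x ∈ 𝐂[⁅F, B⁆] := by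
  rw [← le_cent1, commg_le_iff]
  intro y hy b hb
  have hb' : x * b = b * x := (hB b hb).symm
  rw [mem_centralizer_singleton_iff]
  rcases D.comm y (hF hy) x hx with e | e
  · have e1 : x * y = y * x := mul_inv_eq_iff_eq_mul.1 e
    exact ((((Commute.mul_right e1 hb').mul_right (Commute.inv_right e1)).mul_right
      (Commute.inv_right hb'))).symm
  · have e1 : x * y⁻¹ * x⁻¹ = D.z * y⁻¹ := by
      have : x * y⁻¹ * x⁻¹ = (x * y * x⁻¹)⁻¹ := by group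
      rw [this, e, mul_inv_rev, D.z_inv, D.zc]
    have e2 : x * b * x⁻¹ = b := by rw [hb']; group
    have e3 : x * b⁻¹ * x⁻¹ = b⁻¹ := by
      have : x * b⁻¹ * x⁻¹ = (x * b * x⁻¹)⁻¹ := by group
      rw [this, e2]
    have : x * (y * b * y⁻¹ * b⁻¹) * x⁻¹ = y * b * y⁻¹ * b⁻¹ := by
      calc _ = (x * y * x⁻¹) * (x * b * x⁻¹) * (x * y⁻¹ * x⁻¹) * (x * b⁻¹ * x⁻¹) := by group
        _ = D.z * (y * b * D.z) * y⁻¹ * b⁻¹ := by rw [e, e1, e2, e3]; group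
        _ = (D.z * D.z) * (y * b) * y⁻¹ * b⁻¹ := by rw [D.zc]; group
        _ = _ := by rw [D.zz]; group
    exact (mul_inv_eq_iff_eq_mul.1 this).symm

theorem coprime_of_odd (hF : F ≤ D.E) (hB : Odd (Nat.card B)) :
    (Nat.card F).Coprime (Nat.card B) := by
  obtain ⟨n, hn⟩ := exists_card_pgroup (D.two.to_le hF)
  rw [hn]
  exact Nat.Coprime.pow_left _ (Nat.coprime_two_left.2 hB)

theorem solOr (hF : F ≤ D.E) (B : Subgroup G) : SolOr F B := by
  have := (D.two.to_le hF).isNilpotent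
  exact Or.inl inferInstance

theorem nd_centralizer (hF : D.ND F) (hB : Odd (Nat.card B)) (hn : B ≤ 𝐍[F]) :
    D.ND (F ⊓ 𝐂[B]) := by
  refine ⟨⟨hF.zF, D.Z_le_cent B (mem_zpowers _)⟩, inf_le_left.trans hF.le, fun x hx => ?_⟩
  refine hF.cen ⟨hx.1.1, ?_⟩
  have : x ∈ 𝐂[⁅F, B⁆ ⊔ (F ⊓ 𝐂[B])] := by
    rw [centY]; exact ⟨cent_commg hF.le (hF.le hx.1.1) hx.1.2, hx.2⟩
  rwa [coprime_cent_prod hn (coprime_of_odd hF.le hB) (solOr hF.le B)] at this

/-- if `B` fixes `X` pointwise and has no fixed points on `Y` then `X`, `Y` commute -/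
theorem cent_of_fpf (hX : X ≤ D.E) (hY : Y ≤ D.E) (hB : Odd (Nat.card B)) (hn : B ≤ 𝐍[Y])
    (h1 : X ≤ 𝐂[B]) (h2 : Y ⊓ 𝐂[B] ≤ ⟪D.z⟫) : X ≤ 𝐂[Y] := by
  intro x hx
  have : x ∈ 𝐂[⁅Y, B⁆ ⊔ (Y ⊓ 𝐂[B])] := by
    rw [centY]
    exact ⟨cent_commg hY (hX hx) (h1 hx), centS h2 (D.le_cent_Z X hx)⟩
  rwa [coprime_cent_prod hn (coprime_of_odd hY hB) (solOr hY B)] at this

end Dat

end Cfsg.DadeX
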