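import Cfsg.Agent.Dade.A

/-!
# Dade's extension theorem for extraspecial `2`-groups, part B

Intertwiners (Skolem–Noether by hand) and lifts: products, conjugates, cyclic extensions.
-/

set_option autoImplicit false
set_option linter.unusedSectionVars false

namespace Cfsg.DadeX

open scoped Pointwise commutatorElement
open Subgroup Cfsg.FT

variable {G : Type*} [Group G] [Finite G] {R : Type*} [Ring R] [Algebra ℂ R]

open Classical in
/-- the automorphism of `F` induced by an element of its normalizer -/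
noncomputable def au (F : Subgroup G) (g : G) : MulAut F :=
  if h : g ∈ 𝐍[F] then F.normalizerMonoidHom ⟨g, h⟩ else 1

section
variable {F : Subgroup G} {g h : G}

theorem coe_au (hg : g ∈ 𝐍[F]) (x : F) : (au F g x : G) = g * x * g⁻¹ := by
  rw [au, dif_pos hg]; rfl

theorem au_mul (hg : g ∈ 𝐍[F]) (hh : h ∈ 𝐍[F]) : au F (g * h) = au F g * au F h := by
  ext x
  rw [MulAut.mul_apply, coe_au hg, coe_au hh, coe_au (mul_mem hg hh)]; group

theorem au_one (F : Subgroup G) : au F 1 = 1 := by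
  ext x; rw [coe_au (one_mem _)]; simp

theorem au_inv (hg : g ∈ 𝐍[F]) : au F g⁻¹ = (au F g)⁻¹ :=
  eq_inv_of_mul_eq_one_left (by rw [← au_mul (inv_mem hg) hg, inv_mul_cancel, au_one])

theorem au_pow (hg : g ∈ 𝐍[F]) (n : ℕ) : au F (g ^ n) = au F g ^ n := by
  induction n with
  | zero => rw [pow_zero, pow_zero, au_one]
  | succ n ih => rw [pow_succ, pow_succ, au_mul (pow_mem hg n) hg, ih]

theorem au_eq_one (hg : g ∈ 𝐍[F]) : au F g = 1 ↔ g ∈ 𝐂[F] := by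
  constructor
  · intro h x hx
    have := coe_au hg ⟨x, hx⟩
    rw [h] at this
    exact (mul_inv_eq_iff_eq_mul.1 this.symm).symm
  · intro h
    ext x
    rw [coe_au hg, ← h x x.2]; simp

theorem au_comm (hg : g ∈ 𝐍[F]) (hh : h ∈ 𝐍[F]) (hc : ⁅g, h⁆ ∈ 𝐂[F]) :
    Commute (au F g) (au F h) := by
  rw [← commutatorElement_eq_one_iff_commute, commutatorElement_def, ← au_inv hg, ← au_inv hh,
    ← au_mul hg hh, ← au_mul (mul_mem hg hh) (inv_mem hg),
    ← au_mul (mul_mem (mul_mem hg hh) (inv_mem hg)) (inv_mem hh),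
    au_eq_one (mul_mem (mul_mem (mul_mem hg hh) (inv_mem hg)) (inv_mem hh))]
  exact hc

end

namespace Dat

variable (D : Dat G R) {F F₁ F₂ X Y S S₀ K B : Subgroup G} {g s x y : G} {u v w : R}

/-- `u` intertwines the automorphism `φ` of `F` -/
def IntA (φ : MulAut F) (u : R) : Prop := ∀ f : F, u * D.r f = D.r (φ f) * u

/-- `u` intertwines conjugation by `g` on `F` -/
def Int (F : Subgroup G) (g : G) (u : R) : Prop :=
  ∀ f ∈ F, u * D.r f = D.r (g * f * g⁻¹) * u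

/-- the basic intertwiners -/
noncomputable def Ty (φ : MulAut F) (y : G) : R := ∑ x : F, D.r (φ x) * D.r y * D.r (x : G)⁻¹

variable {D} {φ ψ : MulAut F}

theorem int_iff (hg : g ∈ 𝐍[F]) : D.Int F g u ↔ D.IntA (au F g) u := by
  simp only [Int, IntA, coe_au hg, Subtype.forall]

theorem IntA.mul (h : D.IntA φ u) (h' : D.IntA ψ v) : D.IntA (φ * ψ) (u * v) := fun f => by
  rw [mul_assoc, h', ← mul_assoc, h, mul_assoc]; rfl

theorem IntA.smul (h : D.IntA φ u) (c : ℂ) : D.IntA φ (c • u) := fun f => by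
  rw [smul_mul_assoc, h, mul_smul_comm]

theorem IntA.inv (h : D.IntA φ u) (h1 : u * v = 1) (h2 : v * u = 1) : D.IntA φ⁻¹ v := fun f => by
  have := h (φ⁻¹ f)
  rw [MulAut.apply_inv_self] at this
  calc v * D.r f = v * (D.r f * u) * v := by rw [mul_assoc, mul_assoc, h1, mul_one]
    _ = _ := by rw [← this, ← mul_assoc, h2, one_mul]

theorem aut_z (hF : D.ND F) (φ : MulAut F) : φ ⟨D.z, hF.zF⟩ = ⟨D.z, hF.zF⟩ := by
  have h1 : (φ ⟨D.z, hF.zF⟩ : G) ∈ ⟪D.z⟫ := by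
    refine hF.cen ⟨(φ _).2, fun y hy => ?_⟩
    obtain ⟨y', hy'⟩ := φ.surjective ⟨y, hy⟩
    have e : y' * ⟨D.z, hF.zF⟩ = ⟨D.z, hF.zF⟩ * y' := Subtype.ext (D.zc _)
    have := congrArg (fun a => (φ a : G)) e
    simpa [hy'] using this
  rcases D.mem_Z.1 h1 with e | e
  · have : φ ⟨D.z, hF.zF⟩ = 1 := Subtype.ext e
    rw [map_eq_one_iff _ φ.injective] at this
    exact absurd (congrArg Subtype.val this) D.z_ne
  · exact Subtype.ext e

theorem aut_Z (hF : D.ND F) (φ : MulAut F) {x : F} (hx : (x : G) ∈ ⟪D.z⟫) : φ x = x := by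
  rcases D.mem_Z.1 hx with e | e
  · rw [show x = 1 from Subtype.ext e, map_one]
  · rw [show x = ⟨D.z, hF.zF⟩ from Subtype.ext e, aut_z hF]

theorem Ty_mem (hF : F ≤ D.E) (φ : MulAut F) (hy : y ∈ F) : D.Ty φ y ∈ D.A F :=
  Submodule.sum_mem _ fun x _ =>
    mul_mem_A hF (mul_mem_A hF (r_mem_A (φ x).2) (r_mem_A hy)) (r_mem_A (inv_mem x.2))

theorem Ty_int (hF : F ≤ D.E) (φ : MulAut F) (y : G) : D.IntA φ (D.Ty φ y) := fun f => by
  rw [Ty, Finset.sum_mul, Finset.mul_sum, ← Equiv.sum_comp (Equiv.mulLeft f)]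
  refine Finset.sum_congr rfl fun x _ => ?_
  simp only [Equiv.coe_mulLeft, map_mul, coe_mul, mul_inv_rev]
  rw [D.mul _ (hF (φ f).2) _ (hF (φ x).2), D.mul _ (inv_mem (hF x.2)) _ (inv_mem (hF f.2))]
  simp only [mul_assoc, D.r_inv_mul (hF f.2), mul_one]

theorem mul_Ty_inv (hF : D.ND F) (hu : u ∈ D.A F) (h : D.IntA φ u) (hy : y ∈ F) :
    u * D.Ty φ⁻¹ y = ((Nat.card F : ℂ) * D.t (u * D.r y)) • (1 : R) := by
  rw [← avg hF (mul_mem_A hF.le hu (r_mem_A hy)), Ty, Finset.mul_sum]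
  refine Finset.sum_congr rfl fun x _ => ?_
  rw [← mul_assoc, ← mul_assoc, h, MulAut.apply_inv_self]
  simp only [mul_assoc]

theorem mul_eq_one_comm' (hF : D.ND F) (hu : u ∈ D.A F) (hv : v ∈ D.A F) (h : D.IntA φ u)
    (h' : D.IntA φ⁻¹ v) (e : u * v = 1) : v * u = 1 := by
  have h1 := scalar hF (mul_mem_A hF.le hv hu) (fun f hf => by
    have := h'.mul h ⟨f, hf⟩
    rwa [inv_mul_cancel] at this)
  have h2 : (1 : R) = D.t (v * u) • (1 : R) := by
    calc (1 : R) = u * (v * u) * v := by rw [← mul_assoc, e, one_mul, e]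
      _ = u * (D.t (v * u) • 1) * v := by rw [← h1]
      _ = _ := by rw [mul_smul_comm, smul_mul_assoc, mul_one, e]
  exact h1.trans h2.symm

/-- Skolem–Noether -/
theorem exists_intA (hF : D.ND F) (φ : MulAut F) :
    ∃ u ∈ D.A F, ∃ v ∈ D.A F, u * v = 1 ∧ v * u = 1 ∧ D.IntA φ u := by
  have h1 : ∑ y : F, D.Ty φ y * D.r (y : G)⁻¹ = (2 * Nat.card F : ℂ) • (1 : R) := by
    simp only [Ty, Finset.sum_mul]
    rw [Finset.sum_comm]
    have h2 : ∀ x : F, ∑ y : F, D.r (φ x) * D.r y * D.r (x : G)⁻¹ * D.r (y : G)⁻¹ =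
        D.t (D.r (x : G)⁻¹) • ((Nat.card F : ℂ) • D.r (φ x)) := fun x => by
      have h3 := avg hF (r_mem_A (D := D) (inv_mem x.2))
      simp only [mul_assoc] at h3 ⊢
      rw [← Finset.mul_sum, h3, mul_smul_comm, mul_one, smul_smul, mul_comm]
    simp only [h2]
    rw [sum_delta hF (fun x : F => (Nat.card F : ℂ) • D.r (φ x)), aut_z hF, map_one]
    simp only [OneMemClass.coe_one, D.one, D.rz, smul_neg, sub_neg_eq_add, two_mul, add_smul]
  obtain ⟨y, hy⟩ : ∃ y : F, D.t (D.Ty φ y * D.r (y : G)⁻¹) ≠ 0 := by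
    by_contra! hn
    have := congrArg D.t h1
    simp only [map_sum, hn, Finset.sum_const_zero, map_smul, D.t1, smul_eq_mul, mul_one] at this
    exact mul_ne_zero two_ne_zero (card_ne_zero F) this.symm
  have h4 := mul_Ty_inv hF (Ty_mem hF.le φ y.2) (Ty_int hF.le φ y) (inv_mem y.2)
  have hc := mul_ne_zero (card_ne_zero F) hy
  have h5 : D.Ty φ y * ((((Nat.card F : ℂ) * D.t (D.Ty φ y * D.r (y : G)⁻¹))⁻¹) •
      D.Ty φ⁻¹ (y : G)⁻¹) = 1 := by
    rw [mul_smul_comm, h4, smul_smul, inv_mul_cancel₀ hc, one_smul]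
  have h6 := Submodule.smul_mem _ ((Nat.card F : ℂ) * D.t (D.Ty φ y * D.r (y : G)⁻¹))⁻¹
    (Ty_mem hF.le φ⁻¹ (inv_mem y.2))
  exact ⟨_, Ty_mem hF.le φ y.2, _, h6, h5, mul_eq_one_comm' hF (Ty_mem hF.le φ y.2) h6
    (Ty_int hF.le φ y) ((Ty_int hF.le φ⁻¹ _).smul _) h5, Ty_int hF.le φ y⟩

theorem IntA.unique (hF : D.ND F) (hv : v ∈ D.A F) (hw : w ∈ D.A F) (h : D.IntA φ u)
    (h' : D.IntA φ w) (e : u * v = 1) (e' : v * u = 1) : w = D.t (v * w) • u := by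
  have h1 := scalar hF (mul_mem_A hF.le hv hw) (fun f hf => by
    have := (h.inv e e').mul h' ⟨f, hf⟩
    rwa [inv_mul_cancel] at this)
  calc w = u * (v * w) := by rw [← mul_assoc, e, one_mul]
    _ = _ := by rw [h1, mul_smul_comm, mul_one, ← h1]

theorem exists_int (hF : D.ND F) (hg : g ∈ 𝐍[F]) :
    ∃ u ∈ D.A F, ∃ v ∈ D.A F, u * v = 1 ∧ v * u = 1 ∧ D.Int F g u := by
  simpa only [int_iff hg] using exists_intA hF (au F g)

theorem Int.mul {h : G} (hh : h ∈ 𝐍[F]) (h1 : D.Int F g u) (h2 : D.Int F h v) :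
    D.Int F (g * h) (u * v) := fun f hf => by
  rw [mul_assoc, h2 f hf, ← mul_assoc, h1 _ ((memJ_norm hh).2 hf), mul_assoc]
  congr 2; group

theorem Int.pow (hg : g ∈ 𝐍[F]) (h : D.Int F g u) (n : ℕ) : D.Int F (g ^ n) (u ^ n) := by
  induction n with
  | zero => intro f _; simp
  | succ n ih => rw [pow_succ, pow_succ]; exact ih.mul hg h

theorem Int.smul (h : D.Int F g u) (c : ℂ) : D.Int F g (c • u) := fun f hf => by
  rw [smul_mul_assoc, h f hf, mul_smul_comm]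

theorem Int.mono (h : D.Int F g u) (hX : X ≤ F) : D.Int X g u := fun f hf => h f (hX hf)

theorem Int.sup (hX : X ≤ D.E) (hY : Y ≤ D.E) (h1 : D.Int X g u) (h2 : D.Int Y g u) :
    D.Int (X ⊔ Y) g u := by
  let W : Subgroup G :=
    { carrier := {f | f ∈ D.E ∧ u * D.r f = D.r (g * f * g⁻¹) * u}
      one_mem' := ⟨one_mem _, by simp [D.one]⟩
      mul_mem' := by
        rintro a b ⟨ha, ha'⟩ ⟨hb, hb'⟩
        refine ⟨mul_mem ha hb, ?_⟩
        rw [D.mul _ ha _ hb, ← mul_assoc, ha', mul_assoc, hb', ← mul_assoc,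
          ← D.mul _ (D.norm _ _ ha) _ (D.norm _ _ hb)]
        congr 2; group
      inv_mem' := by
        rintro a ⟨ha, ha'⟩
        refine ⟨inv_mem ha, ?_⟩
        have e : g * a⁻¹ * g⁻¹ = (g * a * g⁻¹)⁻¹ := by group
        calc u * D.r a⁻¹ = D.r (g * a * g⁻¹)⁻¹ * (D.r (g * a * g⁻¹) * u) * D.r a⁻¹ := by
              rw [← mul_assoc, D.r_inv_mul (D.norm _ _ ha), one_mul]
          _ = _ := by rw [← ha', e, mul_assoc _ (u * _), mul_assoc u, D.r_mul_inv ha, mul_one] }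
  have : X ⊔ Y ≤ W := sup_le (fun f hf => ⟨hX hf, h1 f hf⟩) (fun f hf => ⟨hY hf, h2 f hf⟩)
  exact fun f hf => (this hf).2

/-- conjugating `A X` by an intertwiner -/
theorem Int.conj_mem (h : D.Int X g u) (e : u * v = 1) (hw : w ∈ D.A X) :
    u * w * v ∈ D.A (g •ᶜ X) := by
  refine A_induction (p := fun w => u * w * v ∈ D.A (g •ᶜ X)) hw (fun x hx => ?_) (by simp)
    (fun a b h1 h2 => by rw [mul_add, add_mul]; exact add_mem h1 h2)
    (fun c a h1 => by rw [mul_smul_comm, smul_mul_assoc]; exact Submodule.smul_mem _ _ h1)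
  rw [h x hx, mul_assoc, e, mul_one]
  exact r_mem_A (conj_mem_conj.2 hx)

/-- two intertwiners of the same element act alike on `A X` -/
theorem Int.conj_eq {u' v' : R} (h : D.Int X g u) (h' : D.Int X g u') (e : u * v = 1)
    (e' : u' * v' = 1) (hw : w ∈ D.A X) : u * w * v = u' * w * v' := by
  refine A_ext ((LinearMap.mulRight ℂ v).comp (LinearMap.mulLeft ℂ u))
    ((LinearMap.mulRight ℂ v').comp (LinearMap.mulLeft ℂ u')) (fun x hx => ?_) hw
  simp only [LinearMap.comp_apply, LinearMap.mulLeft_apply, LinearMap.mulRight_apply]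
  rw [h x hx, h' x hx, mul_assoc _ u, mul_assoc _ u', e, e']

variable (D) in
/-- `τ` lifts the action of `S` on `F` to a homomorphism into `A F` -/
structure IsLift (F S : Subgroup G) (τ : G → R) : Prop where
  one : τ 1 = 1
  mem : ∀ s ∈ S, τ s ∈ D.A F
  mul : ∀ s ∈ S, ∀ t ∈ S, τ (s * t) = τ s * τ t
  int : ∀ s ∈ S, D.Int F s (τ s)

variable {τ τ₁ τ₂ : G → R}

theorem IsLift.mul_inv (h : D.IsLift F S τ) (hs : s ∈ S) : τ s * τ s⁻¹ = 1 := by
  rw [← h.mul _ hs _ (inv_mem hs), mul_inv_cancel, h.one]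

theorem IsLift.inv_mul (h : D.IsLift F S τ) (hs : s ∈ S) : τ s⁻¹ * τ s = 1 := by
  rw [← h.mul _ (inv_mem hs) _ hs, inv_mul_cancel, h.one]

theorem IsLift.pow (h : D.IsLift F S τ) (hs : s ∈ S) (n : ℕ) : τ (s ^ n) = τ s ^ n := by
  induction n with
  | zero => rw [pow_zero, pow_zero, h.one]
  | succ n ih => rw [pow_succ, pow_succ, h.mul _ (pow_mem hs n) _ hs, ih]

theorem lift_triv (hF : F ≤ ⟪D.z⟫) (S : Subgroup G) : D.IsLift F S (fun _ => 1) :=
  ⟨rfl, fun _ _ => one_mem_A, fun _ _ _ _ => (one_mul _).symm, fun s _ f hf => by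
    rw [D.Z_conj (hF hf), one_mul, mul_one]⟩

theorem IsLift.prod (hX : X ≤ D.E) (hY : Y ≤ D.E) (hc : X ≤ 𝐂[Y]) (hS : S ≤ 𝐍[Y])
    (h1 : D.IsLift X S τ₁) (h2 : D.IsLift Y S τ₂) :
    D.IsLift (X ⊔ Y) S (fun s => τ₁ s * τ₂ s) := by
  refine ⟨by rw [h1.one, h2.one, one_mul], fun s hs => mul_mem_A (sup_le hX hY)
    (A_mono le_sup_left (h1.mem s hs)) (A_mono le_sup_right (h2.mem s hs)),
    fun s hs t ht => ?_, fun s hs => Int.sup hX hY (fun f hf => ?_) (fun f hf => ?_)⟩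
  · rw [h1.mul s hs t ht, h2.mul s hs t ht, mul_assoc, mul_assoc, ← mul_assoc (τ₁ t),
      A_comm hX hY hc (h1.mem t ht) (h2.mem s hs), mul_assoc]
  · rw [mul_assoc, ← A_comm hX hY hc (r_mem_A hf) (h2.mem s hs), ← mul_assoc, h1.int s hs f hf,
      mul_assoc]
  · rw [mul_assoc, h2.int s hs f hf, ← mul_assoc,
      A_comm hX hY hc (h1.mem s hs) (r_mem_A ((memJ_norm (hS hs)).2 hf)), mul_assoc]

theorem IsLift.conj (h : D.IsLift X S τ) (hs : s ∈ 𝐍[S]) (hS : S ≤ 𝐍[X]) (hu : D.Int X s u)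
    (e : u * v = 1) (e' : v * u = 1) :
    D.IsLift (s •ᶜ X) S (fun t => u * τ (s⁻¹ * t * s) * v) := by
  refine ⟨by simp [h.one, e], fun t ht => hu.conj_mem e (h.mem _ ((memJ_norm' hs).2 ht)),
    fun a ha b hb => ?_, fun t ht f hf => ?_⟩
  · have : s⁻¹ * (a * b) * s = (s⁻¹ * a * s) * (s⁻¹ * b * s) := by group
    rw [this, h.mul _ ((memJ_norm' hs).2 ha) _ ((memJ_norm' hs).2 hb)]
    simp only [mul_assoc]
    rw [← mul_assoc v u, e', one_mul]
  · obtain ⟨x, hx, rfl⟩ := mem_conj_iff_exists.1 hf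
    have ht' := (memJ_norm' hs).2 ht
    have h1 : v * D.r (s * x * s⁻¹) = D.r x * v := by
      calc v * D.r (s * x * s⁻¹) = v * (D.r (s * x * s⁻¹) * u) * v := by
            rw [mul_assoc v, mul_assoc _ u, e, mul_one]
        _ = _ := by rw [← hu x hx, ← mul_assoc, e', one_mul]
    rw [mul_assoc, h1, ← mul_assoc, mul_assoc u, h.int _ ht' x hx, ← mul_assoc,
      hu _ ((memJ_norm (hS ht')).2 hx)]
    simp only [mul_assoc]
    congr 2; group

/-- extension of an invariant lift over a cyclic quotient -/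
theorem IsLift.cyclic_ext (hF : D.ND F) (h : D.IsLift F S₀ τ) (hsF : s ∈ 𝐍[F]) (hs : s ∈ 𝐍[S₀])
    (hS : S₀ ≤ 𝐍[F]) (hu : u ∈ D.A F) (e : u * v = 1) (hi : D.Int F s u)
    (heq : ∀ t ∈ S₀, u * τ t = τ (s * t * s⁻¹) * u) : ∃ τ', D.IsLift F (S₀ ⊔ ⟪s⟫) τ' := by
  classical
  have hex : ∃ n, 0 < n ∧ s ^ n ∈ S₀ :=
    ⟨orderOf s, orderOf_pos s, by rw [pow_orderOf_eq_one]; exact one_mem _⟩
  obtain ⟨hn0, hn⟩ := Nat.find_spec hex
  set n := Nat.find hex with hn_def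
  have hdvd : ∀ m, s ^ m ∈ S₀ → n ∣ m := fun m hm => by
    refine Nat.dvd_of_mod_eq_zero (by_contra fun h0 => ?_)
    refine Nat.find_min hex (Nat.mod_lt m hn0) ⟨Nat.pos_of_ne_zero h0, ?_⟩
    rw [← Nat.div_add_mod m n, pow_add, pow_mul] at hm
    exact (mul_mem_cancel_left (pow_mem hn _)).1 hm
  -- normalise `u`
  have h1 : u ^ n = D.t (τ (s ^ n)⁻¹ * u ^ n) • τ (s ^ n) :=
    IntA.unique hF (h.mem _ (inv_mem hn)) (pow_mem_A hF.le hu n)
      ((int_iff (pow_mem hsF n)).1 (h.int _ hn)) ((int_iff (pow_mem hsF n)).1 (hi.pow hsF n))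
      (h.mul_inv hn) (h.inv_mul hn)
  set c := D.t (τ (s ^ n)⁻¹ * u ^ n) with hc_def
  have hc : c ≠ 0 := fun h0 => by
    rw [h0, zero_smul] at h1
    have h2 : ∀ m, u ^ m * v ^ m = 1 := fun m => by
      induction m with
      | zero => simp
      | succ m ih => rw [pow_succ, pow_succ', mul_assoc, ← mul_assoc u, e, one_mul, ih]
    have h3 := congrArg D.t (h2 n)
    rw [h1, zero_mul, map_zero, D.t1] at h3
    exact zero_ne_one h3
  obtain ⟨d, hd⟩ := IsAlgClosed.exists_pow_nat_eq c⁻¹ hn0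
  set w := d • u with hw_def
  have hw : w ∈ D.A F := Submodule.smul_mem _ _ hu
  have hwi : D.Int F s w := hi.smul d
  have hwn : w ^ n = τ (s ^ n) := by
    rw [hw_def, smul_pow, h1, smul_smul, hd, inv_mul_cancel₀ hc, one_smul]
  have hweq : ∀ t ∈ S₀, w * τ t = τ (s * t * s⁻¹) * w := fun t ht => by
    rw [hw_def, smul_mul_assoc, heq t ht, mul_smul_comm]
  have hpow : ∀ j : ℕ, ∀ t ∈ S₀, w ^ j * τ t = τ (s ^ j * t * (s ^ j)⁻¹) * w ^ j := fun j => by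
    induction j with
    | zero => intro t _; simp
    | succ j ih =>
      intro t ht
      rw [pow_succ, mul_assoc, hweq t ht, ← mul_assoc, ih _ ((memJ_norm hs).2 ht), mul_assoc]
      congr 2
      rw [pow_succ]; group
  have hmul : ∀ m, s ^ m ∈ S₀ → w ^ m = τ (s ^ m) := fun m hm => by
    obtain ⟨k, rfl⟩ := hdvd m hm
    rw [pow_mul, pow_mul, hwn, h.pow hn]
  have hwd : ∀ i j : ℕ, ∀ a ∈ S₀, ∀ b ∈ S₀, a * s ^ i = b * s ^ j → τ a * w ^ i = τ b * w ^ j := by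
    have key : ∀ i k : ℕ, ∀ a ∈ S₀, ∀ b ∈ S₀, a * s ^ i = b * s ^ (k + i) →
        τ a * w ^ i = τ b * w ^ (k + i) := fun i k a ha b hb hab => by
      rw [pow_add, ← mul_assoc, mul_left_inj] at hab
      have hk : s ^ k ∈ S₀ := (mul_mem_cancel_left hb).1 (hab ▸ ha)
      rw [hab, h.mul _ hb _ hk, ← hmul k hk, pow_add, mul_assoc]
    intro i j a ha b hb hab
    rcases le_total i j with hij | hij
    · obtain ⟨k, rfl⟩ := Nat.exists_eq_add_of_le' hij
      exact key i k a ha b hb hab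
    · obtain ⟨k, rfl⟩ := Nat.exists_eq_add_of_le' hij
      exact (key j k b hb a ha hab.symm).symm
  have hrep : ∀ g ∈ S₀ ⊔ ⟪s⟫, ∃ i : ℕ, ∃ a ∈ S₀, g = a * s ^ i := fun g hg => by
    obtain ⟨a, ha, b, hb, rfl⟩ := (mem_join_norm (zpowers_le.2 hs)).1 hg
    obtain ⟨i, rfl⟩ := (mem_powers_iff_mem_zpowers.2 hb : ∃ i, s ^ i = b)
    exact ⟨i, a, ha, rfl⟩
  let τ' : G → R := fun g => if hg : ∃ i : ℕ, ∃ a ∈ S₀, g = a * s ^ i then
    τ hg.choose_spec.choose * w ^ hg.choose else 1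
  have hτ' : ∀ i : ℕ, ∀ a ∈ S₀, τ' (a * s ^ i) = τ a * w ^ i := fun i a ha => by
    have hg : ∃ j : ℕ, ∃ b ∈ S₀, a * s ^ i = b * s ^ j := ⟨i, a, ha, rfl⟩
    simp only [τ', dif_pos hg]
    exact (hwd _ _ _ ha _ hg.choose_spec.choose_spec.1 hg.choose_spec.choose_spec.2).symm
  refine ⟨τ', ?_, fun g hg => ?_, fun g hg g' hg' => ?_, fun g hg => ?_⟩
  · simpa [h.one] using hτ' 0 1 (one_mem _)
  · obtain ⟨i, a, ha, rfl⟩ := hrep g hg
    rw [hτ' i a ha]
    exact mul_mem_A hF.le (h.mem a ha) (pow_mem_A hF.le hw i)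
  · obtain ⟨i, a, ha, rfl⟩ := hrep g hg
    obtain ⟨j, b, hb, rfl⟩ := hrep g' hg'
    have hb' := (memJ_norm (pow_mem hs i)).2 hb
    have : a * s ^ i * (b * s ^ j) = (a * (s ^ i * b * (s ^ i)⁻¹)) * s ^ (i + j) := by
      rw [pow_add]; group
    rw [this, hτ' _ _ (mul_mem ha hb'), hτ' i a ha, hτ' j b hb, h.mul _ ha _ hb', mul_assoc (τ a),
      mul_assoc (τ a), ← mul_assoc (w ^ i), hpow i b hb, pow_add, mul_assoc _ (w ^ i)]
  · obtain ⟨i, a, ha, rfl⟩ := hrep g hg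
    rw [hτ' i a ha]
    exact (h.int a ha).mul (pow_mem hsF i) (hwi.pow hsF i)

/-- tensor induction from a subgroup of index two -/
theorem IsLift.tensor (hX : D.ND X) (h : D.IsLift X S₀ τ) (hs : s ∈ 𝐍[S₀]) (hs2 : s * s ∈ S₀)
    (hS : S₀ ≤ 𝐍[X]) (hc : X ≤ 𝐂[s •ᶜ X]) : ∃ τ', D.IsLift (X ⊔ s •ᶜ X) (S₀ ⊔ ⟪s⟫) τ' := by
  have hY := nd_conj hX s
  have hF := nd_sup hX hY (centsC.1 hc)
  have hSY : S₀ ≤ 𝐍[s •ᶜ X] := by
    have := conj_norms s hS
    rwa [conj_eq_of_mem_norm hs] at this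
  have hsF : s ∈ 𝐍[X ⊔ s •ᶜ X] := by
    rw [← conj_eq_iff_mem_norm, conj_sup, conj_conj, conj_eq_of_mem_norm (hS hs2), sup_comm]
  obtain ⟨u, hu, v, -, e, e', hi⟩ := exists_int hF hsF
  have h2 := h.conj hs hS (hi.mono le_sup_left) e e'
  refine (IsLift.prod hX.le hY.le hc hSY h h2).cyclic_ext hF hsF hs (normsY hS hSY) hu e hi
    fun t ht => ?_
  have ht1 := (memJ_norm hs).2 ht
  have ht2 := (memJ_norm' hs).2 ht
  have e1 : s⁻¹ * (s * t * s⁻¹) * s = t := by group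
  have e2 : (u * u) * (v * v) = 1 := by rw [mul_assoc, ← mul_assoc u v, e, one_mul, e]
  have h3 : (u * u) * τ (s⁻¹ * t * s) * (v * v) = τ (s * t * s⁻¹) := by
    rw [Int.conj_eq ((hi.mul hsF hi).mono le_sup_left) (h.int _ hs2) e2 (h.mul_inv hs2)
      (h.mem _ ht2), ← h.mul _ hs2 _ ht2, ← h.mul _ (mul_mem hs2 ht2) _ (inv_mem hs2)]
    congr 1; group
  have h4 := A_comm hX.le hY.le hc (h.mem _ ht1) (h2.mem _ ht1)
  simp only [e1] at h4 ⊢
  rw [h4, ← h3]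
  simp only [mul_assoc]
  rw [e', mul_one, ← mul_assoc v u, e', one_mul]

end Dat

end Cfsg.DadeX
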