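import Cfsg.Agent.Dade.B

/-!
# Dade's extension theorem for extraspecial `2`-groups, part C

The canonical intertwiners `T φ = ∑ r (φ x * x⁻¹)` of fixed-point-free automorphisms multiply
up to a sign; for automorphisms commuting with a fixed-point-free automorphism of odd prime
order `q` the sign is determined by counting modulo `q`.
-/

set_option autoImplicit false
set_option linter.unusedSectionVars false

namespace Cfsg.DadeX

open scoped Pointwise commutatorElement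
open Subgroup Cfsg.FT

theorem card_subtype_modEq {X : Type*} [Finite X] {q : ℕ} [Fact q.Prime] (π : Equiv.Perm X)
    (hπ : π ^ q = 1) (P : X → Prop) (hP : ∀ x, P (π x) ↔ P x) :
    Nat.card {x // P x} ≡ Nat.card {x // P x ∧ π x = x} [MOD q] := by
  classical
  have := Fintype.ofFinite X
  let f : Function.End {x // P x} := fun x => ⟨π x, (hP x).2 x.2⟩
  have h1 : ∀ n : ℕ, ∀ x, ((f ^ n) x : X) = (π ^ n) x := fun n => by
    induction n with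
    | zero => intro x; rfl
    | succ n ih => intro x; rw [pow_succ, pow_succ]; exact ih (f x)
  have h2 : f ^ q ^ 1 = 1 := by
    funext x
    exact Subtype.ext (by rw [h1, pow_one, hπ]; rfl)
  have h3 := Equiv.Perm.card_fixedPoints_modEq h2
  rw [← Nat.card_eq_fintype_card, ← Nat.card_eq_fintype_card] at h3
  have h4 : Nat.card f.fixedPoints = Nat.card {x // P x ∧ π x = x} := Nat.card_congr
    { toFun := fun x => ⟨x.1.1, x.1.2, congrArg Subtype.val x.2⟩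
      invFun := fun x => ⟨⟨x.1, x.2.1⟩, Subtype.ext x.2.2⟩
      left_inv := fun _ => rfl
      right_inv := fun _ => rfl }
  rwa [h4] at h3

variable {G : Type*} [Group G] [Finite G] {R : Type*} [Ring R] [Algebra ℂ R]

namespace Dat

variable (D : Dat G R) {F S K : Subgroup G} {g s x y : G} {u v w : R}

/-- fixed-point-free on `F / ⟪z⟫` -/
def Fpf (φ : MulAut F) : Prop := ∀ x : F, (φ x : G) * (x : G)⁻¹ ∈ ⟪D.z⟫ → (x : G) ∈ ⟪D.z⟫

/-- the canonical intertwiner -/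
noncomputable def T (φ : MulAut F) : R := D.Ty φ 1

variable {D} {φ ψ κ : MulAut F}

theorem T_eq (hF : F ≤ D.E) (φ : MulAut F) : D.T φ = ∑ x : F, D.r (φ x * x⁻¹ : F) :=
  Finset.sum_congr rfl fun x _ => by
    rw [D.one, mul_one, coe_mul, coe_inv, D.mul _ (hF (φ x).2) _ (inv_mem (hF x.2))]

theorem T_mem (hF : F ≤ D.E) (φ : MulAut F) : D.T φ ∈ D.A F := Ty_mem hF φ (one_mem F)

theorem T_int (hF : F ≤ D.E) (φ : MulAut F) : D.IntA φ (D.T φ) := Ty_int hF φ 1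

theorem Fpf.inv (hF : D.ND F) (h : D.Fpf φ) : D.Fpf φ⁻¹ := fun x hx => by
  obtain ⟨y, rfl⟩ := φ.surjective x
  rw [MulAut.inv_apply_self] at hx
  have hy := h y (by simpa using inv_mem hx)
  rwa [aut_Z hF φ hy]

theorem fpf_of_pow (hF : D.ND F) {n : ℕ} (h : ∀ x : F, (φ ^ (2 * n)) x = x → (x : G) ∈ ⟪D.z⟫) :
    D.Fpf φ := fun x hx => by
  refine h x ?_
  have h1 : φ x = (φ x * x⁻¹) * x := by group
  have h2 : (φ ^ 2) x = x := by
    have h3 : (φ x * x⁻¹) * (φ x * x⁻¹) = 1 := Subtype.ext (D.Z_mul_self hx)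
    rw [pow_two, MulAut.mul_apply, h1, map_mul, aut_Z hF φ (x := φ x * x⁻¹) hx]
    calc _ = (φ x * x⁻¹) * (φ x * x⁻¹) * x := by group
      _ = x := by rw [h3, one_mul]
  rw [pow_mul]
  generalize φ ^ 2 = ψ at h2
  clear h
  induction n with
  | zero => rfl
  | succ n ih => rw [pow_succ, MulAut.mul_apply, h2, ih]

theorem t_T (hF : D.ND F) (h : D.Fpf φ) : D.t (D.T φ) = 2 := by
  have hne : (1 : F) ≠ ⟨D.z, hF.zF⟩ := fun e => D.z_ne (congrArg Subtype.val e).symm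
  rw [T_eq hF.le, map_sum, Fintype.sum_eq_add 1 ⟨D.z, hF.zF⟩ hne]
  · rw [aut_z hF, map_one, mul_inv_cancel, mul_inv_cancel, OneMemClass.coe_one, D.one, D.t1]
    norm_num
  · rintro f ⟨h1, h2⟩
    refine D.t_r_of_notMem (hF.le (φ f * f⁻¹).2) fun hz => ?_
    rcases D.mem_Z.1 (h f hz) with e | e
    exacts [h1 (Subtype.ext e), h2 (Subtype.ext e)]

theorem T_mul_inv (hF : D.ND F) (h : D.Fpf φ) :
    D.T φ * D.T φ⁻¹ = ((Nat.card F : ℂ) * 2) • (1 : R) := by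
  have := mul_Ty_inv hF (T_mem hF.le φ) (T_int hF.le φ) (one_mem F)
  rwa [D.one, mul_one, t_T hF h] at this

theorem T_mul (hF : D.ND F) (h : D.Fpf (φ * ψ)) :
    D.T φ * D.T ψ = (D.t (D.T φ * D.T ψ) / 2) • D.T (φ * ψ) := by
  have hc := mul_ne_zero (card_ne_zero F) (two_ne_zero (α := ℂ))
  have h1 := IntA.unique hF
    (Submodule.smul_mem _ ((Nat.card F : ℂ) * 2)⁻¹ (T_mem hF.le (φ * ψ)⁻¹))
    (mul_mem_A hF.le (T_mem hF.le φ) (T_mem hF.le ψ)) (T_int hF.le (φ * ψ))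
    ((T_int hF.le φ).mul (T_int hF.le ψ))
    (by rw [mul_smul_comm, T_mul_inv hF h, smul_smul, inv_mul_cancel₀ hc, one_smul])
    (by
      have := T_mul_inv hF (h.inv hF)
      rw [inv_inv] at this
      rw [smul_mul_assoc, this, smul_smul, inv_mul_cancel₀ hc, one_smul])
  have h2 := congrArg D.t h1
  rw [map_smul, t_T hF h, smul_eq_mul] at h2
  rw [h2, mul_div_cancel_right₀ _ two_ne_zero]
  exact h1

theorem T_inv_eq (hF : F ≤ D.E) (φ : MulAut F) : D.T φ⁻¹ = ∑ x : F, D.r (φ x * x⁻¹ : F)⁻¹ := by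
  rw [T_eq hF, ← Equiv.sum_comp φ.toEquiv]
  refine Finset.sum_congr rfl fun x _ => ?_
  simp

theorem t_T_symm (hF : F ≤ D.E) (φ ψ : MulAut F) :
    D.t (D.T ψ⁻¹ * D.T φ⁻¹) = D.t (D.T φ * D.T ψ) := by
  rw [T_inv_eq hF, T_inv_eq hF, T_eq hF, T_eq hF, Finset.sum_mul_sum, Finset.sum_mul_sum,
    Finset.sum_comm]
  simp only [map_sum]
  refine Finset.sum_congr rfl fun x _ => Finset.sum_congr rfl fun y _ => ?_
  rw [← D.mul _ (inv_mem (hF (ψ y * y⁻¹).2)) _ (inv_mem (hF (φ x * x⁻¹).2)),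
    ← D.mul _ (hF (φ x * x⁻¹).2) _ (hF (ψ y * y⁻¹).2), ← mul_inv_rev,
    D.t_r_inv (mul_mem (hF (φ x * x⁻¹).2) (hF (ψ y * y⁻¹).2))]

theorem t_T_sq (hF : D.ND F) (h1 : D.Fpf φ) (h2 : D.Fpf ψ) (h : D.Fpf (φ * ψ)) :
    D.t (D.T φ * D.T ψ) ^ 2 = 8 * Nat.card F := by
  have e1 := T_mul hF h
  have e2 := T_mul hF (φ := ψ⁻¹) (ψ := φ⁻¹) (by rw [← mul_inv_rev]; exact h.inv hF)
  rw [t_T_symm hF.le, ← mul_inv_rev] at e2
  have e3 : (D.T φ * D.T ψ) * (D.T ψ⁻¹ * D.T φ⁻¹) =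
      (((Nat.card F : ℂ) * 2) * ((Nat.card F : ℂ) * 2)) • (1 : R) := by
    rw [mul_assoc, ← mul_assoc (D.T ψ), T_mul_inv hF h2, smul_mul_assoc, one_mul, mul_smul_comm,
      T_mul_inv hF h1, smul_smul]
  rw [e2] at e3
  nth_rewrite 1 [e1] at e3
  rw [smul_mul_assoc, mul_smul_comm, T_mul_inv hF h, smul_smul, smul_smul] at e3
  have e4 := D.smul_one_inj e3
  have hc := card_ne_zero F
  field_simp at e4
  linear_combination e4

theorem t_T_eq (hF : D.ND F) (φ ψ : MulAut F) : D.t (D.T φ * D.T ψ) =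
    (Nat.card {p : F × F // φ p.1 * p.1⁻¹ * (ψ p.2 * p.2⁻¹) = 1} : ℂ) -
      Nat.card {p : F × F // φ p.1 * p.1⁻¹ * (ψ p.2 * p.2⁻¹) = ⟨D.z, hF.zF⟩} := by
  classical
  rw [T_eq hF.le, T_eq hF.le, Finset.sum_mul_sum, ← Finset.sum_product', Finset.univ_product_univ,
    map_sum, Nat.card_eq_fintype_card, Nat.card_eq_fintype_card, Fintype.card_subtype,
    Fintype.card_subtype, Finset.natCast_card_filter, Finset.natCast_card_filter,
    ← Finset.sum_sub_distrib]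
  refine Finset.sum_congr rfl fun p _ => ?_
  rw [← D.mul _ (hF.le (φ p.1 * p.1⁻¹).2) _ (hF.le (ψ p.2 * p.2⁻¹).2), ← coe_mul]
  generalize φ p.1 * p.1⁻¹ * (ψ p.2 * p.2⁻¹) = w
  have hne : (1 : F) ≠ ⟨D.z, hF.zF⟩ := fun e => D.z_ne (congrArg Subtype.val e).symm
  by_cases h1 : w = 1
  · subst h1; simp [hne, D.one, D.t1]
  · by_cases h2 : w = ⟨D.z, hF.zF⟩
    · subst h2; simp [h1, D.tz]
    · simp [h1, h2, D.t0 w (hF.le w.2) (fun e => h1 (Subtype.ext e))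
        (fun e => h2 (Subtype.ext e))]

theorem exists_int_modEq (hF : D.ND F) {q : ℕ} [Fact q.Prime] (hκ : κ ^ q = 1)
    (hf : ∀ x : F, κ x = x → (x : G) ∈ ⟪D.z⟫) (h1 : Commute φ κ) (h2 : Commute ψ κ) :
    ∃ d : ℤ, D.t (D.T φ * D.T ψ) = d ∧
      d ≡ Nat.card {p : F × F // κ p.1 = p.1 ∧ κ p.2 = p.2} [ZMOD q] := by
  let π : Equiv.Perm (F × F) := Equiv.prodCongr κ.toEquiv κ.toEquiv
  have hπ : ∀ n : ℕ, ∀ p, (π ^ n) p = ((κ ^ n) p.1, (κ ^ n) p.2) := fun n => by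
    induction n with
    | zero => intro p; rfl
    | succ n ih => intro p; rw [pow_succ, pow_succ, Equiv.Perm.mul_apply, ih]; rfl
  have hq : π ^ q = 1 := by ext1 p; rw [hπ, hκ]; rfl
  have hP : ∀ w : F, κ w = w → ∀ p : F × F,
      φ (π p).1 * (π p).1⁻¹ * (ψ (π p).2 * (π p).2⁻¹) = w ↔
        φ p.1 * p.1⁻¹ * (ψ p.2 * p.2⁻¹) = w := fun w hw p => by
    have e1 : φ (κ p.1) = κ (φ p.1) := congrArg (fun a : MulAut F => a p.1) h1
    have e2 : ψ (κ p.2) = κ (ψ p.2) := congrArg (fun a : MulAut F => a p.2) h2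
    change φ (κ p.1) * (κ p.1)⁻¹ * (ψ (κ p.2) * (κ p.2)⁻¹) = w ↔ _
    rw [e1, e2, ← map_inv, ← map_inv, ← map_mul, ← map_mul, ← map_mul]
    nth_rewrite 1 [← hw]
    exact κ.injective.eq_iff
  have hfix : ∀ p : F × F, π p = p → φ p.1 * p.1⁻¹ * (ψ p.2 * p.2⁻¹) = 1 := fun p hp => by
    rw [aut_Z hF φ (hf _ (congrArg Prod.fst hp)), aut_Z hF ψ (hf _ (congrArg Prod.snd hp))]
    simp
  have m1 := card_subtype_modEq π hq (fun p => φ p.1 * p.1⁻¹ * (ψ p.2 * p.2⁻¹) = 1)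
    (hP 1 (map_one κ))
  have m2 := card_subtype_modEq π hq
    (fun p => φ p.1 * p.1⁻¹ * (ψ p.2 * p.2⁻¹) = ⟨D.z, hF.zF⟩) (hP _ (aut_z hF κ))
  have hne : (1 : F) ≠ ⟨D.z, hF.zF⟩ := fun e => D.z_ne (congrArg Subtype.val e).symm
  have : IsEmpty {p : F × F // φ p.1 * p.1⁻¹ * (ψ p.2 * p.2⁻¹) = ⟨D.z, hF.zF⟩ ∧ π p = p} :=
    ⟨fun p => hne ((hfix _ p.2.2).symm.trans p.2.1)⟩
  rw [Nat.card_of_isEmpty (α := {p : F × F //
    φ p.1 * p.1⁻¹ * (ψ p.2 * p.2⁻¹) = ⟨D.z, hF.zF⟩ ∧ π p = p})] at m2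
  rw [Nat.card_congr (Equiv.subtypeEquivRight
    (p := fun p : F × F => φ p.1 * p.1⁻¹ * (ψ p.2 * p.2⁻¹) = 1 ∧ π p = p)
    (q := fun p : F × F => κ p.1 = p.1 ∧ κ p.2 = p.2)
    fun p => ⟨fun h => Prod.ext_iff.1 h.2, fun h => ⟨hfix p (Prod.ext h.1 h.2),
      Prod.ext h.1 h.2⟩⟩)] at m1
  have m3 := (Int.natCast_modEq_iff.2 m1).sub (Int.natCast_modEq_iff.2 m2)
  rw [Nat.cast_zero, sub_zero] at m3
  exact ⟨_, by rw [t_T_eq hF]; push_cast; rfl, m3⟩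

/-- normalised intertwiners are multiplicative -/
theorem exists_sigma (hF : D.ND F) {q : ℕ} [hq : Fact q.Prime] (hq2 : q ≠ 2) (hκ : κ ^ q = 1)
    (hf : D.Fpf κ) (hf2 : D.Fpf (κ * κ)) : ∃ c : ℂ,
    (∀ φ : MulAut F, D.Fpf φ → (c • D.T φ) * (c • D.T φ⁻¹) = 1) ∧
    ∀ φ ψ : MulAut F, Commute φ κ → Commute ψ κ → D.Fpf φ → D.Fpf ψ → D.Fpf (φ * ψ) →
      (c • D.T φ) * (c • D.T ψ) = c • D.T (φ * ψ) := by
  have hw : ∀ x : F, κ x = x → (x : G) ∈ ⟪D.z⟫ := fun x hx =>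
    hf x (by rw [hx, mul_inv_cancel]; exact one_mem _)
  obtain ⟨d, hd, hdm⟩ := exists_int_modEq hF hκ hw (Commute.refl κ) (Commute.refl κ)
  have hd2 := t_T_sq hF hf hf hf2
  rw [hd] at hd2
  have hc := card_ne_zero F
  have hd0 : (d : ℂ) ≠ 0 := fun h => by
    rw [h] at hd2
    exact mul_ne_zero (by norm_num) hc (hd2.symm.trans (by norm_num))
  refine ⟨2 / d, fun φ h => ?_, fun φ ψ c1 c2 h1 h2 h3 => ?_⟩
  · rw [smul_mul_assoc, mul_smul_comm, T_mul_inv hF h, smul_smul, smul_smul]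
    have : (2 : ℂ) / d * (2 / d) * (Nat.card F * 2) = 1 := by
      field_simp
      linear_combination -hd2
    rw [this, one_smul]
  · obtain ⟨d', hd', hdm'⟩ := exists_int_modEq hF hκ hw c1 c2
    have hd2' := t_T_sq hF h1 h2 h3
    rw [hd'] at hd2'
    have e : d' = d := by
      have e1 : d' ^ 2 = d ^ 2 := by exact_mod_cast hd2'.trans hd2.symm
      rcases sq_eq_sq_iff_eq_or_eq_neg.1 e1 with e | e
      · exact e
      · exfalso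
        have h4 : (q : ℤ) ∣ 2 * d := by
          have := (hdm'.trans hdm.symm).dvd
          rwa [e, sub_neg_eq_add, ← two_mul] at this
        obtain ⟨n, hn⟩ := exists_card_pgroup (D.two.to_le hF.le)
        have h5 : d ^ 2 = 2 ^ (n + 3) := by
          rw [hn] at hd2
          have : d ^ 2 = 8 * 2 ^ n := by exact_mod_cast hd2
          rw [this]; ring
        have h6 : (q : ℤ) ∣ 2 ^ (n + 5) := by
          have : (2 : ℤ) ^ (n + 5) = 2 * d * (2 * d) := by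
            rw [show 2 * d * (2 * d) = 4 * d ^ 2 by ring, h5]; ring
          rw [this]
          exact h4.mul_right _
        have h7 : q ∣ 2 ^ (n + 5) := by exact_mod_cast h6
        exact hq2 ((Nat.prime_dvd_prime_iff_eq hq.out Nat.prime_two).1
          (hq.out.dvd_of_dvd_pow h7))
    rw [smul_mul_assoc, mul_smul_comm, T_mul hF h3, hd', e, smul_smul, smul_smul]
    congr 1
    field_simp

theorem IntA.mul_T (hF : F ≤ D.E) (h : D.IntA φ u) (ψ : MulAut F) :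
    u * D.T ψ = D.T (φ * ψ * φ⁻¹) * u := by
  rw [T_eq hF, T_eq hF, Finset.mul_sum, Finset.sum_mul]
  refine Eq.trans ?_ (Equiv.sum_comp φ.toEquiv _)
  refine Finset.sum_congr rfl fun x _ => ?_
  rw [h]
  simp

/-- the base case: `K` induces a group of exponent `q` all of whose elements are fixed-point-free -/
theorem base_lift (hF : D.ND F) {q : ℕ} [hq : Fact q.Prime] (hq2 : q ≠ 2) {S₀ : Subgroup G}
    (hK : K ≤ 𝐍[F]) (hS : S₀ ≤ 𝐍[F]) (h2 : IsPGroup 2 S₀) (hKq : ∀ k ∈ K, k ^ q ∈ 𝐂[F])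
    (hKK : ⁅K, K⁆ ≤ 𝐂[F]) (hSK : ⁅S₀, K⁆ ≤ 𝐂[F]) (hn : ¬ K ≤ 𝐂[F])
    (hf : ∀ k ∈ K, k ∉ 𝐂[F] → F ⊓ 𝐂₁[k] ≤ ⟪D.z⟫) (hsF : s ∈ 𝐍[F]) (hsK : s ∈ 𝐍[K])
    (hs : s ∈ 𝐍[S₀]) : ∃ τ, D.IsLift F (S₀ ⊔ ⟪s⟫) τ := by
  let Q : Subgroup (MulAut F) := (K.subgroupOf 𝐍[F]).map F.normalizerMonoidHom
  let P : Subgroup (MulAut F) := (S₀.subgroupOf 𝐍[F]).map F.normalizerMonoidHom
  have hQ : ∀ κ, κ ∈ Q ↔ ∃ k ∈ K, au F k = κ := fun κ =>
    ⟨by rintro ⟨k, hk, rfl⟩; exact ⟨k, hk, dif_pos k.2⟩,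
      by rintro ⟨k, hk, rfl⟩; exact ⟨⟨k, hK hk⟩, hk, by rw [au, dif_pos (hK hk)]⟩⟩
  have hP : ∀ a, a ∈ P ↔ ∃ k ∈ S₀, au F k = a := fun κ =>
    ⟨by rintro ⟨k, hk, rfl⟩; exact ⟨k, hk, dif_pos k.2⟩,
      by rintro ⟨k, hk, rfl⟩; exact ⟨⟨k, hS hk⟩, hk, by rw [au, dif_pos (hS hk)]⟩⟩
  have cQ : ∀ κ ∈ Q, ∀ κ' ∈ Q, Commute κ κ' := fun κ h κ' h' => by
    obtain ⟨k, hk, rfl⟩ := (hQ _).1 h
    obtain ⟨k', hk', rfl⟩ := (hQ _).1 h'
    exact au_comm (hK hk) (hK hk') (hKK (mem_commg hk hk'))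
  have cP : ∀ a ∈ P, ∀ κ ∈ Q, Commute a κ := fun κ h κ' h' => by
    obtain ⟨k, hk, rfl⟩ := (hP _).1 h
    obtain ⟨k', hk', rfl⟩ := (hQ _).1 h'
    exact au_comm (hS hk) (hK hk') (hSK (mem_commg hk hk'))
  have eQ : ∀ κ ∈ Q, κ ^ q = 1 := fun κ h => by
    obtain ⟨k, hk, rfl⟩ := (hQ _).1 h
    rw [← au_pow (hK hk), au_eq_one (pow_mem (hK hk) _)]
    exact hKq k hk
  have pQ : ∀ κ ∈ Q, ∀ n, κ ^ 2 ^ n = 1 → κ = 1 := fun κ h n e => by
    have hc : Nat.Coprime q (2 ^ n) :=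
      Nat.Coprime.pow_right _ ((Nat.coprime_primes hq.out Nat.prime_two).2 hq2)
    rw [← orderOf_eq_one_iff]
    exact Nat.eq_one_of_dvd_coprimes hc (orderOf_dvd_of_pow_eq_one (eQ κ h))
      (orderOf_dvd_of_pow_eq_one e)
  have wQ : ∀ κ ∈ Q, κ ≠ 1 → ∀ x : F, κ x = x → (x : G) ∈ ⟪D.z⟫ := fun κ h h1 x hx => by
    obtain ⟨k, hk, rfl⟩ := (hQ _).1 h
    refine hf k hk (fun hc => h1 ((au_eq_one (hK hk)).2 hc)) ⟨x.2, ?_⟩
    have := coe_au (hK hk) x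
    rw [hx] at this
    exact mem_centralizer_singleton_iff.2 (mul_inv_eq_iff_eq_mul.1 this.symm).symm
  have fQ : ∀ a ∈ P, ∀ κ ∈ Q, κ ≠ 1 → D.Fpf (a * κ) := fun a ha κ h h1 => by
    obtain ⟨n, hn⟩ : ∃ n, a ^ 2 ^ n = 1 := by
      obtain ⟨k, hk, rfl⟩ := (hP _).1 ha
      obtain ⟨n, hn⟩ := h2 ⟨k, hk⟩
      refine ⟨n, ?_⟩
      rw [← au_pow (hS hk), show k ^ 2 ^ n = 1 from congrArg Subtype.val hn, au_one]
    refine fpf_of_pow hF (n := 2 ^ n) ?_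
    rw [(cP a ha κ h).mul_pow, mul_comm 2, pow_mul a, hn, one_pow, one_mul, ← pow_succ]
    exact wQ _ (pow_mem h _) fun e => h1 (pQ κ h _ e)
  have fQ1 : ∀ κ ∈ Q, κ ≠ 1 → D.Fpf κ := fun κ h h1 => by
    simpa using fQ 1 (one_mem _) κ h h1
  have sq : ∀ κ ∈ Q, κ ≠ 1 → κ * κ ≠ 1 := fun κ h h1 e => h1 (pQ κ h 1 (by rw [← e]; simp [sq]))
  obtain ⟨k, hk, hkC⟩ := SetLike.not_le_iff_exists.1 hn
  set κ := au F k with hκ_def
  have hκ : κ ∈ Q := (hQ _).2 ⟨k, hk, rfl⟩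
  have hκ1 : κ ≠ 1 := fun e => hkC ((au_eq_one (hK hk)).1 e)
  obtain ⟨c, hc1, hc2⟩ := exists_sigma hF hq2 (eQ κ hκ) (fQ1 κ hκ hκ1)
    (fQ1 _ (mul_mem hκ hκ) (sq κ hκ hκ1))
  set σ : MulAut F → R := fun φ => c • D.T φ with hσ
  have H : ∀ a ∈ P, ∀ b ∈ P, ∀ α ∈ Q, ∀ β ∈ Q, α ≠ 1 → β ≠ 1 → α * β ≠ 1 →
      σ (a * α) * σ (b * β) = σ (a * b * (α * β)) := fun a ha b hb α hα β hβ h1 h2 h3 => by
    have e : a * α * (b * β) = a * b * (α * β) := by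
      rw [mul_assoc, mul_assoc, ← mul_assoc α, ← (cP b hb α hα).eq, mul_assoc]
    rw [← e]
    exact hc2 _ _ ((cP a ha κ hκ).mul_left (cQ α hα κ hκ)) ((cP b hb κ hκ).mul_left (cQ β hβ κ hκ))
      (fQ a ha α hα h1) (fQ b hb β hβ h2) (e ▸ fQ _ (mul_mem ha hb) _ (mul_mem hα hβ) h3)
  have ind : ∀ a ∈ P, ∀ α ∈ Q, ∀ β ∈ Q, α ≠ 1 → β ≠ 1 →
      σ (a * α) * σ α⁻¹ = σ (a * β) * σ β⁻¹ := fun a ha α hα β hβ h1 h2 => by
    by_cases e : α = β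
    · rw [e]
    have h3 : α⁻¹ * β ≠ 1 := fun e' => e (inv_mul_eq_one.1 e')
    have e1 := H a ha 1 (one_mem _) α hα _ (mul_mem (inv_mem hα) hβ) h1 h3 (by simpa using h2)
    have e2 := H 1 (one_mem _) 1 (one_mem _) _ (mul_mem (inv_mem hα) hβ) _ (inv_mem hβ) h3
      (inv_ne_one.2 h2) (by simpa using h1)
    simp only [one_mul, mul_one, mul_inv_cancel_left, mul_inv_cancel_right] at e1 e2
    rw [← e1, ← e2, mul_assoc]
  have hσi : ∀ φ, D.IntA φ (σ φ) := fun φ => (T_int hF.le φ).smul c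
  have hσm : ∀ φ, σ φ ∈ D.A F := fun φ => Submodule.smul_mem _ _ (T_mem hF.le φ)
  have hPa : ∀ t ∈ S₀, au F t ∈ P := fun t ht => (hP _).2 ⟨t, ht, rfl⟩
  have hl : D.IsLift F S₀ (fun t => σ (au F t * κ) * σ κ⁻¹) := by
    refine ⟨?_, fun t _ => mul_mem_A hF.le (hσm _) (hσm _), fun a ha b hb => ?_, fun t ht => ?_⟩
    · rw [au_one, one_mul]; exact hc1 κ (fQ1 κ hκ hκ1)
    · have hκ2 := mul_mem hκ hκ
      have e1 := H 1 (one_mem _) _ (hPa b hb) _ (inv_mem hκ) _ hκ2 (inv_ne_one.2 hκ1)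
        (sq κ hκ hκ1) (by simpa using hκ1)
      have e2 := H _ (hPa a ha) _ (hPa b hb) _ hκ _ hκ hκ1 hκ1 (sq κ hκ hκ1)
      simp only [one_mul, inv_mul_cancel_left] at e1
      rw [au_mul (hS ha) (hS hb), ind _ (hPa b hb) _ hκ _ hκ2 hκ1 (sq κ hκ hκ1),
        ind _ (mul_mem (hPa a ha) (hPa b hb)) _ hκ _ hκ2 hκ1 (sq κ hκ hκ1), ← e2, ← e1]
      simp only [mul_assoc]
    · rw [int_iff (hS ht)]
      simpa using (hσi (au F t * κ)).mul (hσi κ⁻¹)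
  obtain ⟨u, hu, v, -, e, -, hi⟩ := exists_int hF hsF
  refine hl.cyclic_ext hF hsF hs hS hu e hi fun t ht => ?_
  have hi' := (int_iff hsF).1 hi
  have huσ : ∀ φ, u * σ φ = σ (au F s * φ * (au F s)⁻¹) * u := fun φ => by
    simp only [hσ, mul_smul_comm, smul_mul_assoc, hi'.mul_T hF.le]
  have hκ' : au F s * κ * (au F s)⁻¹ ∈ Q := (hQ _).2 ⟨_, (memJ_norm hsK).2 hk, by
    rw [au_mul (mul_mem hsF (hK hk)) (inv_mem hsF), au_mul hsF (hK hk), au_inv hsF]⟩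
  rw [ind _ (hPa _ ((memJ_norm hs).2 ht)) _ hκ _ hκ' hκ1 (by simpa using hκ1), ← mul_assoc, huσ,
    mul_assoc, huσ, ← mul_assoc, au_mul (mul_mem hsF (hS ht)) (inv_mem hsF), au_mul hsF (hS ht),
    au_inv hsF]
  congr 3 <;> group

end Dat

end Cfsg.DadeX
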