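import Cfsg.Agent.Dade.C
import Cfsg.Agent.FT.Main

/-!
# Dade's extension theorem for extraspecial `2`-groups, part D: the induction
-/

set_option autoImplicit false
set_option linter.unusedSectionVars false

namespace Cfsg.DadeX

open scoped Pointwise commutatorElement
open Subgroup Cfsg.FT

variable {G : Type*} [Group G] [Finite G] {R : Type*} [Ring R] [Algebra ℂ R]

namespace Dat

variable {D : Dat G R} {F S K B : Subgroup G}

theorem base_case (hF : D.ND F) (hF1 : ¬ F ≤ ⟪D.z⟫) {q : ℕ} [hq : Fact q.Prime] (hq2 : q ≠ 2)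
    (ho : Odd (Nat.card K)) (hK : K ≤ 𝐍[F]) (hS : S ≤ 𝐍[F]) (hSK : S ≤ 𝐍[K])
    (h2 : IsPGroup 2 S) (hKq : ∀ k ∈ K, k ^ q ∈ 𝐂[F]) (hKK : ⁅K, K⁆ ≤ 𝐂[F]) (hn : ¬ K ≤ 𝐂[F])
    (hf : ∀ k ∈ K, k ∉ 𝐂[F] → F ⊓ 𝐂₁[k] ≤ ⟪D.z⟫) : ∃ τ, D.IsLift F S τ := by
  set C := K ⊓ 𝐂[F] with hC
  have hKC : K ≤ 𝐍[C] := normsI (normG K) (norms_cent hK)
  have hSC : S ≤ 𝐍[C] := normsI hSK (norms_cent hS)
  have hFC : F ≤ 𝐍[C] := cents_norm (centsC.1 inf_le_right)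
  have hab : IsElementaryAbelian q (K ⁄ C) := (quotient_abelem_iff hKC).2
    ⟨le_inf (der_sub K) hKK, fun k hk => ⟨pow_mem hk q, hKq k hk⟩⟩
  have hco := coprime_of_odd hF.le ho
  have hcyc : IsCyclic (K ⁄ C) := by
    by_contra hnc
    obtain ⟨a, ha, ha1, h⟩ := coprime_abelian_exists_cent1 (L := ⟪D.z⟫ ⁄ C) hab.1 hnc
      (quotient_norms C hK) (coprime_quo2 C hco) (fun h => by
        rw [quotientSK hFC (hF.Z_le.trans hFC)] at h
        exact hF1 ((le_inf le_rfl (h.trans (sup_le inf_le_right (D.Z_le_cent F)))).trans hF.cen))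
    obtain ⟨k, hk, hkn, rfl⟩ := mem_quo.1 ha
    refine h fun y hy => ?_
    obtain ⟨x, hx, hxn, rfl⟩ := mem_quo.1 hy.1
    refine mem_quotient C (hf k hk (fun hc => ha1 (coset_id ⟨hk, hc⟩)) ⟨hx, ?_⟩)
    have h1 : ⁅x, k⁆ ∈ C := by
      refine coset_idr (mul_mem (mul_mem (mul_mem hxn hkn) (inv_mem hxn)) (inv_mem hkn)) ?_
      rw [coset_commg hxn hkn, commutatorElement_eq_one_iff_mul_comm]
      exact mem_centralizer_singleton_iff.1 hy.2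
    have h3 : ⁅x, k⁆ ∈ F ⊓ K := ⟨commg_subl.2 hK (mem_commg hx hk), h1.1⟩
    rw [inf_eq_bot_of_coprime hco, mem_bot, commutatorElement_eq_one_iff_mul_comm] at h3
    exact mem_centralizer_singleton_iff.2 h3
  have hcard : Nat.card (K ⁄ C) = q := cyclic_abelem_prime hab hcyc fun h =>
    hn (((quotient_sub1 hKC).1 h).trans inf_le_right)
  have hN := quotient_norms C hSK
  obtain ⟨ξ, hξ⟩ := cyclicP.1 (quo_cent_prime_cyclic (hcard ▸ hq.out) hN)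
  obtain ⟨y, hy, hyn, rfl⟩ := mem_quo.1 (hξ ▸ mem_zpowers ξ : ξ ∈ (S ⁄ C) ⁄ 𝐂[K ⁄ C])
  obtain ⟨s, hs, hsn, rfl⟩ := mem_quo.1 hy
  have hN' := norms_cent hN
  have hle := hξ.le
  rw [← quotient_cycle hyn, quotientSK hN' (zpowers_le.2 hyn)] at hle
  have hnorm : S ⊓ centSec K C ⊴ S := subcentSec_normal hSK hSC
  have heq : (S ⊓ centSec K C) ⊔ ⟪s⟫ = S := by
    refine le_antisymm (sup_le inf_le_left (zpowers_le.2 hs)) fun t ht => ?_
    obtain ⟨c, hc, b', hb', e⟩ := (mem_join_norm (zpowers_le.2 hyn)).1 (hle (mem_quotient C ht))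
    rw [← quotient_cycle hsn] at hb'
    obtain ⟨b, hb, hbn, rfl⟩ := mem_quo.1 hb'
    have hbS : b ∈ S := zpowers_le.2 hs hb
    have h1 : t * b⁻¹ ∈ S := mul_mem ht (inv_mem hbS)
    have h3 : t * b⁻¹ ∈ centSec K C := by
      rw [mem_centSec hKC, ← coset_mem_cent_iff (hSC h1) hKC, coset_mul (hSC ht) (inv_mem hbn),
        coset_inv, ← e, mul_inv_cancel_right]
      exact ⟨hSC h1, hc⟩
    have : t = t * b⁻¹ * b := by group
    rw [this]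
    exact mul_mem (mem_sup_left ⟨h1, h3⟩) (mem_sup_right hb)
  have := base_lift hF hq2 hK (inf_le_left.trans hS) (h2.to_le inf_le_left) hKq hKK
    (((sub_astabQR (inf_le_left.trans hSC) hKC).1 (inf_le_right (a := S))).trans inf_le_right)
    hn hf (hS hs) (hSK hs) (hnorm.norm hs)
  rwa [heq] at this

theorem exists_index_two (h2 : IsPGroup 2 S) {T : Subgroup G} (h : T < S) :
    ∃ S₀, T ≤ S₀ ∧ S₀ < S ∧ ∃ s ∈ S, s ∉ S₀ ∧ s ∈ 𝐍[S₀] ∧ s * s ∈ S₀ ∧ S₀ ⊔ ⟪s⟫ = S := by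
  obtain ⟨M, hM, hT⟩ := maximal_exists h
  obtain ⟨s, hs, hsM⟩ := SetLike.exists_of_lt hM.lt
  have hn := p_maximal_normal h2 hM
  refine ⟨M, hT, hM.lt, s, hs, hsM, hn.norm hs, ?_,
    hM.sup_eq (zpowers_le.2 hs) fun h => hsM (h (mem_zpowers s))⟩
  have := hn.normal
  have h1 := pow_index_mem (H := M.subgroupOf S) ⟨s, hs⟩
  rw [show (M.subgroupOf S).index = 2 from p_maximal_index h2 hM] at h1
  simpa [mem_subgroupOf, pow_two] using h1

theorem main_aux (n : ℕ) : ∀ F K S : Subgroup G, Nat.card F + Nat.card K + Nat.card S < n →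
    D.ND F → Odd (Nat.card K) → IsPGroup 2 S → K ≤ 𝐍[F] → S ≤ 𝐍[F] → S ≤ 𝐍[K] →
    F ⊓ 𝐂[K] ≤ ⟪D.z⟫ → ∃ τ, D.IsLift F S τ := by
  induction n with
  | zero => intro F K S h; omega
  | succ n ih =>
  intro F K S hn hF ho h2 hK hS hSK hc
  by_cases hF1 : F ≤ ⟪D.z⟫
  · exact ⟨_, lift_triv hF1 S⟩
  -- no proper nondegenerate invariant subgroup
  by_cases hirr : ∃ X, D.ND X ∧ X < F ∧ ¬ X ≤ ⟪D.z⟫ ∧ K ≤ 𝐍[X] ∧ S ≤ 𝐍[X]
  · obtain ⟨X, hX, hXF, hXZ, hKX, hSX⟩ := hirr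
    have hY := nd_cent hF hX hXF.le
    have hYF : F ⊓ 𝐂[X] < F := lt_of_le_of_ne inf_le_left fun e =>
      hXZ ((le_inf le_rfl (hXF.le.trans (e.ge.trans inf_le_right))).trans hX.cen)
    have c1 := card_lt_of_lt hXF
    have c2 := card_lt_of_lt hYF
    have hSY := normsI hS (norms_cent hSX)
    obtain ⟨τ₁, h₁⟩ := ih X K S (by omega) hX ho h2 hKX hSX hSK
      ((inf_le_inf_right _ hXF.le).trans hc)
    obtain ⟨τ₂, h₂⟩ := ih _ K S (by omega) hY ho h2 (normsI hK (norms_cent hKX)) hSY hSK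
      ((inf_le_inf_right _ hYF.le).trans hc)
    have := IsLift.prod hX.le hY.le (centsC.1 inf_le_right) hSY h₁ h₂
    rw [sup_cent hF hX hXF.le] at this
    exact ⟨_, this⟩
  have irr : ∀ X, D.ND X → X ≤ F → K ≤ 𝐍[X] → S ≤ 𝐍[X] → X = F ∨ X ≤ ⟪D.z⟫ :=
    fun X hX hXF hKX hSX => by
      by_contra! h
      exact hirr ⟨X, hX, lt_of_le_of_ne hXF h.1, h.2, hKX, hSX⟩
  have odd : ∀ M, M ≤ K → Odd (Nat.card M) := fun M hM => ho.of_dvd_nat (card_dvd_of_le hM)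
  -- proper invariant subgroups of `K` centralize `F`
  by_cases hmin : ∃ M, M < K ∧ K ≤ 𝐍[M] ∧ S ≤ 𝐍[M] ∧ ¬ M ≤ 𝐂[F]
  · obtain ⟨M, hM, hKM, hSM, hMF⟩ := hmin
    have c1 := card_lt_of_lt hM
    refine ih F M S (by omega) hF (odd M hM.le) h2 (hM.le.trans hK) hS hSM ?_
    refine (irr _ (nd_centralizer hF (odd M hM.le) (hM.le.trans hK)) inf_le_left
      (normsI hK (norms_cent hKM)) (normsI hS (norms_cent hSM))).resolve_left fun e => ?_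
    exact hMF (centsC.1 (e.ge.trans inf_le_right))
  have mn : ∀ M, M ≤ K → K ≤ 𝐍[M] → S ≤ 𝐍[M] → M = K ∨ M ≤ 𝐂[F] := fun M h1 h3 h4 => by
    by_contra! h
    exact hmin ⟨M, lt_of_le_of_ne h1 h.1, h3, h4, h.2⟩
  have hKF : ¬ K ≤ 𝐂[F] := fun h => hF1 ((le_inf le_rfl (centsC.1 h)).trans hc)
  have hKK : ⁅K, K⁆ ≤ 𝐂[F] := by
    refine (mn _ (der_sub K) (der_norm K) (normsR hSK hSK)).resolve_left fun e => ?_
    have hsol : Group.IsSolvable K := feit_thompson ho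
    have hne : K ≠ ⊥ := fun h => hKF (h ▸ bot_le)
    exact (sol_der1_proper hsol hne).ne e
  obtain ⟨q, hq, hq2, hKq⟩ : ∃ q : ℕ, q.Prime ∧ q ≠ 2 ∧ ∀ k ∈ K, k ^ q ∈ 𝐂[F] := by
    obtain ⟨m, ⟨hm, hmC⟩, hmin⟩ := exists_minimalFor_of_wellFoundedLT
      (fun m => m ∈ K ∧ m ∉ 𝐂[F]) orderOf (SetLike.not_le_iff_exists.1 hKF)
    have h1 : orderOf m ≠ 1 := fun e => hmC (orderOf_eq_one_iff.1 e ▸ one_mem _)
    have hq := Nat.minFac_prime h1
    have hd := Nat.minFac_dvd (orderOf m)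
    set q := (orderOf m).minFac
    have hmq : m ^ q ∈ 𝐂[F] := by
      by_contra h
      have h3 : orderOf (m ^ q) < orderOf m := by
        rw [orderOf_pow_of_dvd hq.ne_zero hd]
        exact Nat.div_lt_self (orderOf_pos m) hq.one_lt
      exact absurd (hmin ⟨pow_mem hm q, h⟩ h3.le) (not_le.2 h3)
    refine ⟨q, hq, fun e => ?_, ?_⟩
    · exact (Nat.not_even_iff_odd.2 ho) (even_iff_two_dvd.2
        (e ▸ hd.trans (K.orderOf_dvd_natCard hm)))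
    · let M : Subgroup G :=
        { carrier := {k | k ∈ K ∧ k ^ q ∈ 𝐂[F]}
          one_mem' := ⟨one_mem _, by rw [one_pow]; exact one_mem _⟩
          mul_mem' := by
            rintro a b ⟨ha, ha'⟩ ⟨hb, hb'⟩
            refine ⟨mul_mem ha hb, ?_⟩
            rw [← au_eq_one (pow_mem (hK ha) q), au_pow (hK ha)] at ha'
            rw [← au_eq_one (pow_mem (hK hb) q), au_pow (hK hb)] at hb'
            rw [← au_eq_one (pow_mem (hK (mul_mem ha hb)) q), au_pow (hK (mul_mem ha hb)),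
              au_mul (hK ha) (hK hb), (au_comm (hK ha) (hK hb) (hKK (mem_commg ha hb))).mul_pow,
              ha', hb', one_mul]
          inv_mem' := by
            rintro a ⟨ha, ha'⟩
            exact ⟨inv_mem ha, by rw [inv_pow]; exact inv_mem ha'⟩ }
      have hM : ∀ L : Subgroup G, L ≤ 𝐍[K] → L ≤ 𝐍[F] → L ≤ 𝐍[M] := fun L h1 h3 =>
        normsP.2 fun a ha x hx => ⟨(memJ_norm (h1 ha)).2 hx.1, by
          rw [conj_pow]; exact (memJ_norm (norms_cent h3 ha)).2 hx.2⟩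
      rcases mn M (fun _ h => h.1) (hM K (normG K) hK) (hM S hSK hS) with e | e
      · exact fun k hk => (e.ge hk).2
      · exact absurd (e ⟨hm, hmq⟩) hmC
  have := Fact.mk hq
  -- maximal subgroups of `K` with fixed points
  let Ω : Subgroup G → Prop := fun B => B ≤ K ∧ ¬ F ⊓ 𝐂[B] ≤ ⟪D.z⟫
  obtain ⟨B, -, hB⟩ := Finite.exists_le_maximal (p := Ω) (a := ⊥)
    ⟨bot_le, by rwa [cent_bot, inf_top_eq]⟩
  have hconj : ∀ s ∈ S, ∀ B, Ω B → Ω (s •ᶜ B) := fun s hs B hB => by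
    refine ⟨conj_le_of_mem_norm (hSK hs) hB.1, fun h => hB.2 ?_⟩
    rw [cent_conj, ← conj_eq_of_mem_norm (hS hs), ← conj_inf,
      ← conj_eq_of_mem_cent (D.le_cent_Z S hs), conj_le_conj] at h
    exact h
  have hmax : ∀ s ∈ S, ∀ B, Maximal Ω B → Maximal Ω (s •ᶜ B) := fun s hs B hB =>
    ⟨hconj s hs B hB.prop, fun B' h1 h3 =>
      le_conj_iff.2 (hB.le_of_ge (hconj _ (inv_mem hs) _ h1) (conj_le_iff.1 h3))⟩
  have hnK : ∀ B, Maximal Ω B → K ≤ 𝐍[B] := fun B hB => by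
    refine sub_der1_norm (le_sup_right.trans (hB.le_of_ge (y := B ⊔ ⁅K, K⁆)
      ⟨sup_le hB.prop.1 (der_sub K), fun h => hB.prop.2 ?_⟩ le_sup_left)) hB.prop.1
    rw [centY] at h
    exact (le_inf inf_le_left (le_inf inf_le_right (inf_le_left.trans (centsC.1 hKK)))).trans h
  have hnd : ∀ B, Maximal Ω B → D.ND (F ⊓ 𝐂[B]) := fun B hB =>
    nd_centralizer hF (odd B hB.prop.1) (hB.prop.1.trans hK)
  have hcomm : ∀ B B', Maximal Ω B → Maximal Ω B' → B ≠ B' → F ⊓ 𝐂[B] ≤ 𝐂[F ⊓ 𝐂[B']] :=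
    fun B B' hB hB' hne => by
      refine cent_of_fpf (hnd B hB).le (hnd B' hB').le (odd B hB.prop.1)
        (hB.prop.1.trans (normsI hK (norms_cent (hnK B' hB')))) inf_le_right ?_
      by_contra h
      have h1 : Ω (B' ⊔ B) := ⟨sup_le hB'.prop.1 hB.prop.1, by rwa [centY, ← inf_assoc]⟩
      exact hne (le_antisymm (le_sup_right.trans (hB'.le_of_ge h1 le_sup_left))
        (le_sup_left.trans (hB.le_of_ge h1 le_sup_right)))
  by_cases hSB : S ≤ 𝐍[B]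
  · have e := (irr _ (hnd B hB) inf_le_left (normsI hK (norms_cent (hnK B hB)))
      (normsI hS (norms_cent hSB))).resolve_right hB.prop.2
    refine base_case hF hF1 hq2 ho hK hS hSK h2 hKq hKK hKF fun k hk hkC => ?_
    by_contra h
    have h1 : Ω (B ⊔ ⟪k⟫) := ⟨sup_le hB.prop.1 (zpowers_le.2 hk), by
      rwa [centY, ← inf_assoc, e, cent_cycle]⟩
    exact hkC (centsC.1 (e.ge.trans inf_le_right)
      (hB.le_of_ge h1 le_sup_left (mem_sup_right (mem_zpowers k))))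
  obtain ⟨S₀, hT, hlt, s, hs, hsS, hsn, hs2, hsup⟩ :=
    exists_index_two h2 (inf_lt_left.2 hSB)
  let 𝒳 : Set (Subgroup G) := {Y | ∃ t ∈ S₀, Y = F ⊓ 𝐂[t •ᶜ B]}
  have hX : D.ND (⟪D.z⟫ ⊔ sSup 𝒳) := by
    refine nd_sSup ?_ ?_
    · rintro _ ⟨t, ht, rfl⟩
      exact hnd _ (hmax t (hlt.le ht) B hB)
    · rintro _ ⟨t, ht, rfl⟩ _ ⟨t', ht', rfl⟩ hne
      exact hcomm _ _ (hmax t (hlt.le ht) B hB) (hmax t' (hlt.le ht') B hB) fun e => hne (by rw [e])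
  set X := ⟪D.z⟫ ⊔ sSup 𝒳 with hX_def
  have hXF : X ≤ F := sup_le hF.Z_le (sSup_le (by rintro _ ⟨t, ht, rfl⟩; exact inf_le_left))
  have hcj : ∀ a ∈ S, ∀ t : G, a •ᶜ (F ⊓ 𝐂[t •ᶜ B]) = F ⊓ 𝐂[(a * t) •ᶜ B] := fun a ha t => by
    rw [conj_inf, conj_eq_of_mem_norm (hS ha), ← cent_conj, conj_conj]
  have hKX : K ≤ 𝐍[X] := normsY (cents_norm (D.le_cent_Z K)) (norms_sSup (by
    rintro a ha _ ⟨t, ht, rfl⟩
    exact ⟨t, ht, conj_eq_of_mem_norm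
      (normsI hK (norms_cent (hnK _ (hmax t (hlt.le ht) B hB))) ha)⟩))
  have hSX : S₀ ≤ 𝐍[X] := normsY (cents_norm (D.le_cent_Z S₀)) (norms_sSup (by
    rintro a ha _ ⟨t, ht, rfl⟩
    exact ⟨a * t, mul_mem ha ht, hcj a (hlt.le ha) t⟩))
  have hcX : X ≤ 𝐂[s •ᶜ X] := by
    refine sup_le (D.Z_le_cent _) (sSup_le ?_)
    rintro _ ⟨t, ht, rfl⟩
    rw [centsC, conj_le_iff, ← cent_conj]
    refine sup_le (D.Z_le_cent _) (sSup_le ?_)
    rintro _ ⟨t', ht', rfl⟩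
    rw [hcj _ (inv_mem hs)]
    refine hcomm _ _ (hmax t' (hlt.le ht') B hB)
      (hmax _ (mul_mem (inv_mem hs) (hlt.le ht)) B hB) fun e => hsS ?_
    have h1 : t'⁻¹ * (s⁻¹ * t) ∈ S₀ := hT (mem_inf.2 ⟨mul_mem (inv_mem (hlt.le ht'))
      (mul_mem (inv_mem hs) (hlt.le ht)), by
        rw [← conj_eq_iff_mem_norm, ← conj_conj, ← e, inv_conj_conj]⟩)
    rwa [mul_mem_cancel_left (inv_mem ht'), mul_mem_cancel_right ht, inv_mem_iff] at h1
  have c1 := card_lt_of_lt hlt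
  have c2 := card_le_of_le hXF
  obtain ⟨τ, hτ⟩ := ih X K S₀ (by omega) hX ho (h2.to_le hlt.le) hKX hSX (hlt.le.trans hSK)
    ((inf_le_inf_right _ hXF).trans hc)
  obtain ⟨τ', hτ'⟩ := hτ.tensor hX hsn hs2 hSX hcX
  have hKY : K ≤ 𝐍[s •ᶜ X] := by
    have := conj_norms s hKX
    rwa [conj_eq_of_mem_norm (hSK hs)] at this
  have hSY : S₀ ≤ 𝐍[s •ᶜ X] := by
    have := conj_norms s hSX
    rwa [conj_eq_of_mem_norm hsn] at this
  have hsW : s ∈ 𝐍[X ⊔ s •ᶜ X] := by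
    rw [← conj_eq_iff_mem_norm, conj_sup, conj_conj, conj_eq_of_mem_norm (hSX hs2), sup_comm]
  have e := (irr _ (nd_sup hX (nd_conj hX s) (centsC.1 hcX))
    (sup_le hXF (conj_le_of_mem_norm (hS hs) hXF)) (normsY hKX hKY)
    (hsup ▸ join_norms (normsY hSX hSY) (zpowers_le.2 hsW))).resolve_right fun h =>
      hB.prop.2 (((le_sSup (show F ⊓ 𝐂[B] ∈ 𝒳 from ⟨1, one_mem _, by rw [one_conj]⟩)).trans
        (le_sup_right.trans le_sup_left)).trans h)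
  rw [e, hsup] at hτ'
  exact ⟨τ', hτ'⟩

theorem main (hF : D.ND F) (ho : Odd (Nat.card K)) (h2 : IsPGroup 2 S) (hK : K ≤ 𝐍[F])
    (hS : S ≤ 𝐍[F]) (hSK : S ≤ 𝐍[K]) (hc : F ⊓ 𝐂[K] ≤ ⟪D.z⟫) : ∃ τ, D.IsLift F S τ :=
  main_aux _ F K S (Nat.lt_succ_self _) hF ho h2 hK hS hSK hc

end Dat

end Cfsg.DadeX
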